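import Cfsg.Agent.H106.RC.Use
import Cfsg.Agent.H106.RC.Ari
import Cfsg.Agent.LieClassical.SLGen

/-!
# The M-rule for a homomorphism `j : X →* G` with central kernel (helper520)

* `mrule_hom` : `X` perfect, `f : X →* S'` onto a simple classical group, not exceptional, with kernel the centre,
  `j.ker ≤ center X`;
* `sl_perfect`, `sl_simple`, `sl_ncomm`, `sl_cl`, `sl_not_exc` : the special linear group of a space of
  dimension at least 3.
-/

set_option autoImplicit false
open Cfsg

namespace Cfsg.Agent.H520.RC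

open MulAction Cfsg.Agent.H106.RC

/-- **The M-rule for a homomorphism.** -/
theorem mrule_hom {G S S' X Ω ι : Type} [Group G] [Finite G] [Group S] [Finite S] [Group S'] [Finite S']
    [Group X] [MulAction G Ω] [Finite ι] (hIH : IH (Nat.card S)) {N : Subgroup G} (e : N ≃* S)
    (j : X →* G) (hjN : j.range ≤ N) (hne : j.range ≠ N) (hperf : commutator X = ⊤)
    (f : X →* S') (hf : Function.Surjective f) (hfk : f.ker = Subgroup.center X) (hjk : j.ker ≤ Subgroup.center X)
    (h1 : IsSimpleGroup S') (h2 : ¬ IsMulCommutative S') (h3 : Cl S') (h4 : ¬ Exc S')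
    {x : ι → G} {r : ι → ℕ} (hx : PF x r) (hcov : Cov Ω x)
    (hnorm : ∀ i a, ∃ b, x i * j a * (x i)⁻¹ = j b) (ω : Ω) :
    (∀ a, j a • ω = ω) ∨ ∃ i, (∀ a, x i * j a = j a * x i) ∧ x i • ω = ω := by
  have hp : ⁅j.range, j.range⁆ = j.range := by
    rw [commutator_def] at hperf
    rw [MonoidHom.range_eq_map j, ← Subgroup.map_commutator, hperf]
  have hle : j.ker ≤ f.ker := by rw [hfk]; exact hjk
  let π : ↥j.range →* S' :=
    (QuotientGroup.lift j.ker f hle).comp (QuotientGroup.quotientKerEquivRange j).symm.toMonoidHom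
  have hπj : ∀ a, π ⟨j a, a, rfl⟩ = f a := by
    intro a
    have h5 : (QuotientGroup.quotientKerEquivRange j).symm ⟨j a, a, rfl⟩ = (a : X ⧸ j.ker) := by
      rw [MulEquiv.symm_apply_eq]
      rfl
    show QuotientGroup.lift j.ker f hle ((QuotientGroup.quotientKerEquivRange j).symm ⟨j a, a, rfl⟩) = f a
    rw [h5]
    rfl
  have hπ : Function.Surjective π := by
    intro s
    obtain ⟨a, rfl⟩ := hf s
    exact ⟨_, hπj a⟩
  have hker : π.ker ≤ Subgroup.center ↥j.range := by
    rintro ⟨_, a, rfl⟩ hm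
    rw [MonoidHom.mem_ker, hπj] at hm
    have ha : a ∈ Subgroup.center X := by rw [← hfk]; exact hm
    rw [Subgroup.mem_center_iff]
    rintro ⟨_, b, rfl⟩
    apply Subtype.ext
    show j b * j a = j a * j b
    rw [← map_mul, ← map_mul, Subgroup.mem_center_iff.1 ha b]
  have hn : ∀ i, x i ∈ Subgroup.normalizer ((j.range : Subgroup G) : Set G) := by
    intro i
    have hsub : ∀ m ∈ j.range, x i * m * (x i)⁻¹ ∈ j.range := by
      rintro _ ⟨a, rfl⟩
      obtain ⟨b, hb⟩ := hnorm i a
      exact ⟨b, hb.symm⟩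
    rw [Subgroup.mem_normalizer_iff]
    intro m
    refine ⟨hsub m, fun hm => ?_⟩
    -- a power of `x i` is its inverse
    have hpow : ∀ k : ℕ, ∀ n ∈ j.range, x i ^ k * n * (x i ^ k)⁻¹ ∈ j.range := by
      intro k
      induction k with
      | zero => intro n hn; simpa using hn
      | succ k ih =>
        intro n hn
        have h5 := hsub _ (ih n hn)
        have e5 : x i ^ (k + 1) * n * (x i ^ (k + 1))⁻¹ = x i * (x i ^ k * n * (x i ^ k)⁻¹) * (x i)⁻¹ := by
          rw [pow_succ']; group
        rw [e5]; exact h5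
    have h6 := hpow (r i - 1) _ hm
    have h7 : x i ^ (r i - 1) * x i = 1 := by
      rw [← pow_succ, Nat.sub_add_cancel (hx.prime i).one_le, hx.pow]
    have h8 : x i ^ (r i - 1) = (x i)⁻¹ := eq_inv_of_mul_eq_one_left h7
    rw [h8] at h6
    have e9 : (x i)⁻¹ * (x i * m * (x i)⁻¹) * (x i)⁻¹⁻¹ = m := by group
    rwa [e9] at h6
  rcases mrule_IH hIH e hjN hne hp π hπ hker h1 h2 h3 h4 hx hcov hn ω with h | ⟨i, hi, hiω⟩
  · exact Or.inl fun a => h ⟨a, rfl⟩
  · exact Or.inr ⟨i, fun a => hi _ ⟨a, rfl⟩, hiω⟩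

section sl

variable {F W : Type*} [Field F] [AddCommGroup W] [Module F W] [FiniteDimensional F W]

theorem sl_perfect (h : 3 ≤ Module.finrank F W) : commutator (SpecialLinearGroup F W) = ⊤ := by
  let e := Matrix.SpecialLinearGroup.toLin_equiv (Module.finBasis F W)
  have h1 : commutator (Matrix.SpecialLinearGroup (Fin (Module.finrank F W)) F) = ⊤ :=
    Cfsg.Agent.LieClassical.SLGen.commutator_eq_top (by rw [Fintype.card_fin]; exact h)
  have h2 : (commutator (Matrix.SpecialLinearGroup (Fin (Module.finrank F W)) F)).map e.toMonoidHom =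
      commutator (SpecialLinearGroup F W) := by
    rw [commutator_def, commutator_def, Subgroup.map_commutator, ← MonoidHom.range_eq_map,
      MonoidHom.range_eq_top.2 e.surjective]
  rw [← h2, h1, ← MonoidHom.range_eq_map, MonoidHom.range_eq_top.2 e.surjective]

/-- onto `PSL` -/
theorem exists_sl_hom : ∃ f : SpecialLinearGroup F W →*
      Matrix.ProjectiveSpecialLinearGroup (Fin (Module.finrank F W)) F,
    Function.Surjective f ∧ f.ker = Subgroup.center (SpecialLinearGroup F W) := by
  let e := Matrix.SpecialLinearGroup.toLin_equiv (Module.finBasis F W)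
  refine ⟨(QuotientGroup.mk' (Subgroup.center _)).comp e.symm.toMonoidHom,
    (QuotientGroup.mk'_surjective _).comp e.symm.surjective, ?_⟩
  ext a
  rw [MonoidHom.mem_ker]
  show (QuotientGroup.mk (e.symm a) : Matrix.SpecialLinearGroup (Fin (Module.finrank F W)) F ⧸ _) = 1 ↔ _
  rw [QuotientGroup.eq_one_iff, Subgroup.mem_center_iff, Subgroup.mem_center_iff]
  constructor
  · intro h b
    have h1 := h (e.symm b)
    rw [← map_mul, ← map_mul] at h1
    exact e.symm.injective h1
  · intro h b
    apply e.injective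
    rw [map_mul, map_mul, MulEquiv.apply_symm_apply, h]

end sl

theorem psl_simple3 {F : Type*} [Field F] {n : ℕ} (h : 3 ≤ n) :
    IsSimpleGroup (Matrix.ProjectiveSpecialLinearGroup (Fin n) F) :=
  Cfsg.Agent.LieClassical.SLGen.psl_isSimpleGroup (by rw [Fintype.card_fin]; exact h)

theorem psl_ncomm3 {F : Type*} [Field F] {n : ℕ} (h : 3 ≤ n) :
    ¬ IsMulCommutative (Matrix.ProjectiveSpecialLinearGroup (Fin n) F) := by
  intro hc
  have hs := psl_simple3 (F := F) h
  have h1 : commutator (Matrix.SpecialLinearGroup (Fin n) F) = ⊤ :=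
    Cfsg.Agent.LieClassical.SLGen.commutator_eq_top (by rw [Fintype.card_fin]; exact h)
  have h2 : commutator (Matrix.ProjectiveSpecialLinearGroup (Fin n) F) = ⊤ := by
    have h3 : Group.IsPerfect (Matrix.SpecialLinearGroup (Fin n) F) := ⟨h1⟩
    have h4 : Group.IsPerfect (Matrix.ProjectiveSpecialLinearGroup (Fin n) F) := inferInstance
    exact h4.commutator_eq_top
  have h3 : commutator (Matrix.ProjectiveSpecialLinearGroup (Fin n) F) = ⊥ := by
    rw [commutator_def, Subgroup.commutator_eq_bot_iff_le_centralizer]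
    intro x _
    rw [Subgroup.mem_centralizer_iff]
    intro y _
    exact hc.is_comm.comm y x
  rw [h2] at h3
  have := hs.toNontrivial
  exact top_ne_bot h3

theorem psl_cl3 {F : Type} [Field F] [Finite F] {n : ℕ} (h : 3 ≤ n) :
    Cl (Matrix.ProjectiveSpecialLinearGroup (Fin n) F) := by
  have : Fintype F := Fintype.ofFinite F
  exact Or.inl ⟨F, inferInstance, inferInstance, n, by omega, fun _ => by omega, ⟨MulEquiv.refl _⟩⟩

theorem psl_not_exc3 {F : Type*} [Field F] [Finite F] {n : ℕ} (h : 3 ≤ n) (h42 : ¬ (n = 4 ∧ Nat.card F = 2)) :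
    ¬ Exc (Matrix.ProjectiveSpecialLinearGroup (Fin n) F) := by
  have : Fintype F := Fintype.ofFinite F
  intro hx
  have h0 := Nat.card_eq_fintype_card (α := F)
  rcases psl_exc (by omega) hx with ⟨h1, -⟩ | ⟨h1, h2⟩
  · omega
  · exact h42 ⟨h1, by omega⟩

end Cfsg.Agent.H520.RC
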