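import Cfsg.Agent.H520.RC.SpDefs
import Cfsg.Agent.H106.RC.Ari
import Cfsg.Agent.H727.GW.Glue
import Cfsg.Agent.ClassicalGeometry.SympIso
import Cfsg.Agent.ClassicalGeometry.SympAutSemi
import Cfsg.Agent.LieClassical.SympPerfect
import Cfsg.Agent.LieClassical.FieldTransfer
import Cfsg.Agent.S0244
import Cfsg.Agent.S0270
import Cfsg.Agent.S0810

/-!
# S3510, row D: identification of `Sp B`, embeddings, M-rule for homomorphisms (helper520)

* `exists_spE`, `gen_tv`, `perfect_Sp`, `mem_center_Sp`, `simple_Sp`, `ncomm_Sp`, `cl_Sp`, `not_exc_Sp`,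
  `not_exc_Sp2`;
* `emb hB hA : Sp (B.restrict A) →* Sp B`;
* `SpEnv.mrule` : M-rule for an injective homomorphism `j : X →* Sp B`.
-/

set_option autoImplicit false
open Cfsg

namespace Cfsg.Agent.H520.RC

open MulAction Module Cfsg.Agent.H106.RC Cfsg.Agent.H727.GW
open Cfsg.Agent.ClassicalGeometry.SympAutSemi Cfsg.Agent.ClassicalGeometry.SympBasic
open scoped commutatorElement

universe u v

section ident

variable {F : Type u} {V : Type v} [Field F] [AddCommGroup V] [Module F V] {B : LinearMap.BilinForm F V}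

/-- the homomorphism `Sp_{2m}(F) → Sp B` given by an isometry of the spaces -/
def spHom {m : ℕ} (e : (Fin m ⊕ Fin m → F) ≃ₗ[F] V) (he : ∀ x y, B (e x) (e y) = sympForm m F x y) :
    Matrix.symplecticGroup (Fin m) F →* Sp B where
  toFun A := ⟨{ toFun := fun v => e (rho m F A (e.symm v))
                invFun := fun v => e (rho m F A⁻¹ (e.symm v))
                left_inv := fun v => by
                  show e (rho m F A⁻¹ (e.symm (e (rho m F A (e.symm v))))) = v
                  rw [e.symm_apply_apply, map_inv, perm_inv_apply_self, e.apply_symm_apply]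
                right_inv := fun v => by
                  show e (rho m F A (e.symm (e (rho m F A⁻¹ (e.symm v))))) = v
                  rw [e.symm_apply_apply, map_inv, perm_apply_inv_self, e.apply_symm_apply]
                map_add' := fun u v => by
                  rw [map_add, (isSemi_rho A).1, map_add]
                map_smul' := fun a v => by
                  rw [map_smul, (isSemi_rho A).2.1, map_smul]
                  rfl }, by
    intro u v
    show B (e (rho m F A (e.symm u))) (e (rho m F A (e.symm v))) = B u v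
    rw [he, sympForm_rho, ← he, e.apply_symm_apply, e.apply_symm_apply]⟩
  map_one' := by
    apply Subtype.ext
    apply LinearEquiv.ext
    intro v
    show e (rho m F 1 (e.symm v)) = v
    rw [map_one]
    exact e.apply_symm_apply v
  map_mul' A C := by
    apply Subtype.ext
    apply LinearEquiv.ext
    intro v
    show e (rho m F (A * C) (e.symm v)) = e (rho m F A (e.symm (e (rho m F C (e.symm v)))))
    rw [map_mul, e.symm_apply_apply]
    rfl

theorem spHom_apply {m : ℕ} (e : (Fin m ⊕ Fin m → F) ≃ₗ[F] V) (he : ∀ x y, B (e x) (e y) = sympForm m F x y)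
    (A : Matrix.symplecticGroup (Fin m) F) (v : V) : (spHom e he A).1 v = e (rho m F A (e.symm v)) := rfl

theorem spHom_bijective {m : ℕ} (e : (Fin m ⊕ Fin m → F) ≃ₗ[F] V)
    (he : ∀ x y, B (e x) (e y) = sympForm m F x y) : Function.Bijective (spHom e he) := by
  constructor
  · intro A C h
    apply rho_injective
    ext1 x
    have h1 := congrArg (fun t : Sp B => t.1 (e x)) h
    change e (rho m F A (e.symm (e x))) = e (rho m F C (e.symm (e x))) at h1
    rw [e.symm_apply_apply] at h1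
    exact e.injective h1
  · intro t
    obtain ⟨A, hA⟩ := exists_rho_eq ((e.trans (t.1.trans e.symm)).toEquiv)
      (fun u v => (e.trans (t.1.trans e.symm)).map_add u v) (fun a v => (e.trans (t.1.trans e.symm)).map_smul a v)
      (fun u v => by
        show sympForm m F (e.symm (t.1 (e u))) (e.symm (t.1 (e v))) = _
        rw [← he, e.apply_symm_apply, e.apply_symm_apply, t.2, he])
    refine ⟨A, ?_⟩
    apply Subtype.ext
    apply LinearEquiv.ext
    intro v
    rw [spHom_apply, hA]
    show e (e.symm (t.1 (e (e.symm v)))) = _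
    rw [e.apply_symm_apply, e.apply_symm_apply]

theorem exists_dim [FiniteDimensional F V] (hB : NAlt B) : ∃ m, finrank F V = 2 * m := by
  obtain ⟨k, hk⟩ := even_finrank _ V B hB.alt hB.nd rfl
  exact ⟨k, by omega⟩

theorem exists_spE [FiniteDimensional F V] (hB : NAlt B) {m : ℕ} (hm : finrank F V = 2 * m) :
    Nonempty (Matrix.symplecticGroup (Fin m) F ≃* Sp B) := by
  obtain ⟨e, he⟩ := Cfsg.Agent.ClassicalGeometry.SympIso.exists_linearEquiv_sympForm B hB.alt hB.nd hm
  exact ⟨MulEquiv.ofBijective (spHom e he) (spHom_bijective e he)⟩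

theorem spHom_transv {m : ℕ} (e : (Fin m ⊕ Fin m → F) ≃ₗ[F] V)
    (he : ∀ x y, B (e x) (e y) = sympForm m F x y) (hB : NAlt B) (w : Fin m ⊕ Fin m → F) (c : F) :
    spHom e he (transv w c) = tv hB (e w) c := by
  apply Subtype.ext
  apply LinearEquiv.ext
  intro v
  rw [spHom_apply, rho_transv, tv_apply]
  obtain ⟨v, rfl⟩ := e.surjective v
  rw [e.symm_apply_apply, he, map_add, map_smul]

/-- `Sp B` is generated by the transvections -/
theorem gen_tv [FiniteDimensional F V] (hB : NAlt B) (K : Subgroup (Sp B)) (hK : ∀ e c, tv hB e c ∈ K) : K = ⊤ := by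
  obtain ⟨m, hm⟩ := exists_dim hB
  obtain ⟨e, he⟩ := Cfsg.Agent.ClassicalGeometry.SympIso.exists_linearEquiv_sympForm B hB.alt hB.nd hm
  have h1 : (⊤ : Subgroup (Matrix.symplecticGroup (Fin m) F)) ≤ K.comap (spHom e he) := by
    rw [← S0765.result, Subgroup.closure_le]
    rintro A ⟨w, c, hA⟩
    have hA' : A = transv w c := Subtype.ext hA
    show spHom e he A ∈ K
    rw [hA', spHom_transv e he hB]
    exact hK _ _
  rw [eq_top_iff]
  intro t _
  obtain ⟨A, rfl⟩ := (spHom_bijective e he).2 t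
  exact h1 (Subgroup.mem_top A)

/-- the centre of `Sp B` is the group of scalars -/
theorem mem_center_Sp [FiniteDimensional F V] (hB : NAlt B) {t : Sp B} :
    t ∈ Subgroup.center (Sp B) ↔ ∃ a : F, ∀ v, t.1 v = a • v := by
  constructor
  · intro ht
    by_cases hV : ∃ v : V, v ≠ 0
    · obtain ⟨v0, hv0⟩ := hV
      obtain ⟨m, hm⟩ := exists_dim hB
      have hd : 2 ≤ finrank F V := by
        have : Nontrivial V := ⟨⟨v0, 0, hv0⟩⟩
        have : 0 < finrank F V := Module.finrank_pos
        omega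
      have h2 : ∀ v, ∃ c : F, t.1.toAddEquiv.toAddMonoidHom v = c • v := by
        intro v
        by_cases hv : v = 0
        · exact ⟨0, by rw [hv]; simp⟩
        have h3 : SS.cj (SS.tg t) (tv hB v 1) = tv hB v 1 := by
          rw [SS.cj_tg, ← Subgroup.mem_center_iff.1 ht, mul_inv_cancel_right]
        rw [cj_tv] at h3
        obtain ⟨y, hy⟩ := hB.exists_ne hv
        have h4 := congrArg (fun s : Sp B => s.1 y) h3
        change (tv hB (SS.tg t v) _).1 y = (tv hB v 1).1 y at h4
        rw [tv_apply, tv_apply, add_right_inj] at h4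
        have h5 : (SS.tg t).σ 1 * (SS.tg t).l⁻¹ = 1 := by rw [map_one, one_mul]; exact inv_one
        rw [h5, one_mul, one_mul] at h4
        have h6 : B y v ≠ 0 := fun h0 => hy (hB.swap0 h0)
        have h7 : B y (SS.tg t v) ≠ 0 := by
          intro h0
          rw [h0, zero_smul] at h4
          rcases smul_eq_zero.1 h4.symm with h8 | h8
          · exact h6 h8
          · exact hv h8
        refine ⟨(B y (SS.tg t v))⁻¹ * B y v, ?_⟩
        show SS.tg t v = _
        rw [mul_smul, ← h4, smul_smul, inv_mul_cancel₀ h7, one_smul]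
      obtain ⟨c, hc⟩ := scal_of_lines hd _ h2
      exact ⟨c, hc⟩
    · push Not at hV
      exact ⟨1, fun v => by rw [hV v, map_zero, smul_zero]⟩
  · rintro ⟨a, ha⟩
    rw [Subgroup.mem_center_iff]
    intro s
    apply Subtype.ext
    apply LinearEquiv.ext
    intro v
    show s.1 (t.1 v) = t.1 (s.1 v)
    rw [ha, ha, map_smul]

section fin

variable [Finite F] [FiniteDimensional F V]

/-- `Sp B` is perfect -/
theorem perfect_Sp (hB : NAlt B)
    (h : 6 ≤ finrank F V ∨ (finrank F V = 4 ∧ 3 ≤ Nat.card F) ∨ 4 ≤ Nat.card F) :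
    commutator (Sp B) = ⊤ := by
  have : Fintype F := Fintype.ofFinite F
  obtain ⟨m, hm⟩ := exists_dim hB
  obtain ⟨e⟩ := exists_spE hB hm
  have h1 : commutator (Matrix.symplecticGroup (Fin m) F) = ⊤ := by
    apply Cfsg.Agent.LieClassical.SympPerfect.commutator_eq_top
    rw [← Nat.card_eq_fintype_card]
    rcases h with h | h | h
    · left; omega
    · right; left; exact ⟨by omega, h.2⟩
    · right; right; exact h
  have h2 := Subgroup.map_commutator (⊤ : Subgroup (Matrix.symplecticGroup (Fin m) F)) ⊤ e.toMonoidHom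
  rw [← commutator_def, h1, ← MonoidHom.range_eq_map, MonoidHom.range_eq_top.2 e.surjective] at h2
  exact h2.symm

omit [Finite F] in
theorem card_quot (hB : NAlt B) {m : ℕ} (hm : finrank F V = 2 * m) :
    Nonempty ((Sp B ⧸ Subgroup.center (Sp B)) ≃* PSp m F) := by
  obtain ⟨e⟩ := exists_spE hB hm
  exact ⟨(Cfsg.Agent.LieClassical.FieldTransfer.centralQuotientCongr e).symm⟩

/-- `Sp_2 = SL_2` -/
def spTwo (F : Type u) [Field F] : Matrix.symplecticGroup (Fin 1) F ≃* Matrix.SpecialLinearGroup (Fin 2) F where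
  toFun A := ⟨Matrix.reindex finSumFinEquiv finSumFinEquiv (A : Matrix (Fin 1 ⊕ Fin 1) (Fin 1 ⊕ Fin 1) F), by
    rw [Matrix.det_reindex_self]
    exact (S0244.result _).1 A.2⟩
  invFun A := ⟨Matrix.reindex finSumFinEquiv.symm finSumFinEquiv.symm (A : Matrix (Fin 2) (Fin 2) F), by
    rw [S0244.result, Matrix.det_reindex_self]
    exact A.2⟩
  left_inv A := by
    apply Subtype.ext
    ext i j
    simp
  right_inv A := by
    apply Subtype.ext
    ext i j
    simp
  map_mul' A B := by
    apply Subtype.ext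
    change Matrix.reindex finSumFinEquiv finSumFinEquiv (A.1 * B.1) =
      Matrix.reindex finSumFinEquiv finSumFinEquiv A.1 * Matrix.reindex finSumFinEquiv finSumFinEquiv B.1
    rw [Matrix.reindex_apply, Matrix.reindex_apply, Matrix.reindex_apply, Matrix.submatrix_mul_equiv]

/-- `PSp_2 = PSL_2` -/
def pspOne (F : Type u) [Field F] : PSp 1 F ≃* Matrix.ProjectiveSpecialLinearGroup (Fin 2) F :=
  Cfsg.Agent.LieClassical.FieldTransfer.centralQuotientCongr (spTwo F)

/-- the central quotient is simple -/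
theorem simple_Sp (hB : NAlt B)
    (h : 6 ≤ finrank F V ∨ (finrank F V = 4 ∧ 3 ≤ Nat.card F) ∨ (finrank F V ≠ 0 ∧ 4 ≤ Nat.card F)) :
    IsSimpleGroup (Sp B ⧸ Subgroup.center (Sp B)) := by
  have : Fintype F := Fintype.ofFinite F
  obtain ⟨m, hm⟩ := exists_dim hB
  obtain ⟨e⟩ := card_quot hB hm
  have h0 := Nat.card_eq_fintype_card (α := F)
  by_cases h1 : m = 1
  · subst h1
    refine isSimple_cgr0 (e.trans (pspOne F)).symm ?_
    apply Matrix.ProjectiveSpecialLinearGroup.rank_two_simple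
    omega
  · exact isSimple_cgr0 e.symm (S0270.result m (by omega) (by omega))

/-- ... not abelian ... -/
theorem ncomm_Sp (hB : NAlt B)
    (h : 6 ≤ finrank F V ∨ (finrank F V = 4 ∧ 3 ≤ Nat.card F) ∨ (finrank F V ≠ 0 ∧ 4 ≤ Nat.card F)) :
    ¬ IsMulCommutative (Sp B ⧸ Subgroup.center (Sp B)) := by
  intro hc
  have hs := simple_Sp hB h
  have hp := perfect_Sp hB (by rcases h with h | h | h <;> tauto)
  have : Nontrivial (Sp B ⧸ Subgroup.center (Sp B)) := hs.toNontrivial
  have h1 : commutator (Sp B) ≤ Subgroup.center (Sp B) := by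
    rw [commutator_def, Subgroup.commutator_le]
    intro a _ b _
    rw [← QuotientGroup.eq_one_iff]
    have h2 : (QuotientGroup.mk a : Sp B ⧸ Subgroup.center (Sp B)) * QuotientGroup.mk b =
        QuotientGroup.mk b * QuotientGroup.mk a := hc.is_comm.comm _ _
    rw [commutatorElement_def, QuotientGroup.mk_mul, QuotientGroup.mk_mul, QuotientGroup.mk_mul, h2]
    simp
  rw [hp] at h1
  have h3 : (Subgroup.center (Sp B)) = ⊤ := top_le_iff.1 h1
  have h4 : Subsingleton (Sp B ⧸ Subgroup.center (Sp B)) := by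
    rw [h3]
    exact QuotientGroup.subsingleton_quotient_top
  exact not_subsingleton _ h4

/-- ... not exceptional ... -/
theorem not_exc_Sp (hB : NAlt B) (h : 6 ≤ finrank F V ∨ (finrank F V = 4 ∧ 3 ≤ Nat.card F)) :
    ¬ Exc (Sp B ⧸ Subgroup.center (Sp B)) := by
  have : Fintype F := Fintype.ofFinite F
  obtain ⟨m, hm⟩ := exists_dim hB
  obtain ⟨e⟩ := card_quot hB hm
  have h0 := Nat.card_eq_fintype_card (α := F)
  intro hx
  refine psp_not_exc (F := F) (m := m) (by omega) (by omega) ?_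
  rcases hx with ⟨⟨f⟩⟩ | ⟨⟨f⟩⟩ | ⟨⟨f⟩⟩
  · exact Or.inl ⟨e.symm.trans f⟩
  · exact Or.inr (Or.inl ⟨e.symm.trans f⟩)
  · exact Or.inr (Or.inr ⟨e.symm.trans f⟩)

theorem not_exc_Sp2 (hB : NAlt B) (h2 : finrank F V = 2) (h4 : Nat.card F ≠ 4) (h5 : Nat.card F ≠ 5)
    (h9 : Nat.card F ≠ 9) : ¬ Exc (Sp B ⧸ Subgroup.center (Sp B)) := by
  have : Fintype F := Fintype.ofFinite F
  obtain ⟨e⟩ := card_quot hB (m := 1) (by omega)
  have h0 := Nat.card_eq_fintype_card (α := F)
  intro hx
  have h1 := psl_exc (F := F) (n := 2) le_rfl (by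
    rcases hx with ⟨⟨f⟩⟩ | ⟨⟨f⟩⟩ | ⟨⟨f⟩⟩
    · exact Or.inl ⟨(e.trans (pspOne F)).symm.trans f⟩
    · exact Or.inr (Or.inl ⟨(e.trans (pspOne F)).symm.trans f⟩)
    · exact Or.inr (Or.inr ⟨(e.trans (pspOne F)).symm.trans f⟩))
  omega

end fin

/-- ... and classical -/
theorem cl_Sp {F V : Type} [Field F] [Finite F] [AddCommGroup V] [Module F V] [FiniteDimensional F V]
    {B : LinearMap.BilinForm F V} (hB : NAlt B)
    (h : 6 ≤ finrank F V ∨ (finrank F V = 4 ∧ 3 ≤ Nat.card F) ∨ (finrank F V ≠ 0 ∧ 4 ≤ Nat.card F)) :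
    Cl (Sp B ⧸ Subgroup.center (Sp B)) := by
  have : Fintype F := Fintype.ofFinite F
  obtain ⟨m, hm⟩ := exists_dim hB
  obtain ⟨e⟩ := card_quot hB hm
  have h0 := Nat.card_eq_fintype_card (α := F)
  by_cases h1 : m = 1
  · subst h1
    exact Or.inl ⟨F, inferInstance, inferInstance, 2, le_rfl, fun _ => by omega, ⟨e.trans (pspOne F)⟩⟩
  · exact Or.inr (Or.inl ⟨F, inferInstance, inferInstance, m, by omega, by omega, ⟨e⟩⟩)

section emb

variable [FiniteDimensional F V]

omit [FiniteDimensional F V] in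
theorem sub_nd {A : Submodule F V} (hA : NAlt (B.restrict A)) :
    ∀ c ∈ A, (∀ c' ∈ A, B c c' = 0) → c = 0 := by
  intro c hc h
  exact congrArg Subtype.val (hA.nd ⟨c, hc⟩ fun y => h y.1 y.2)

/-- the isometries of a nondegenerate subspace -/
noncomputable def emb (hB : NAlt B) {A : Submodule F V} (hA : NAlt (B.restrict A)) : Sp (B.restrict A) →* Sp B where
  toFun t := ⟨glue hB.alt A (sub_nd hA) t.1, glue_mem hB.alt A (sub_nd hA) t.2⟩
  map_one' := by
    apply Subtype.ext
    apply LinearEquiv.ext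
    intro v
    obtain ⟨c, d, hd, rfl⟩ := exists_decomp hB.alt A (sub_nd hA) v
    exact glue_apply hB.alt A (sub_nd hA) _ c d hd
  map_mul' s t := by
    apply Subtype.ext
    apply LinearEquiv.ext
    intro v
    obtain ⟨c, d, hd, rfl⟩ := exists_decomp hB.alt A (sub_nd hA) v
    show glue hB.alt A (sub_nd hA) (s.1 * t.1) (c + d) =
      glue hB.alt A (sub_nd hA) s.1 (glue hB.alt A (sub_nd hA) t.1 (c + d))
    rw [glue_apply hB.alt A (sub_nd hA) _ c d hd, glue_apply hB.alt A (sub_nd hA) _ c d hd,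
      glue_apply hB.alt A (sub_nd hA) _ _ d hd]
    rfl

theorem emb_apply_mem (hB : NAlt B) {A : Submodule F V} (hA : NAlt (B.restrict A)) (t : Sp (B.restrict A)) (a : A) :
    (emb hB hA t).1 (a : V) = t.1 a := by
  have h := glue_apply hB.alt A (sub_nd hA) t.1 a 0 (Submodule.zero_mem _)
  rw [add_zero, add_zero] at h
  exact h

theorem emb_apply_orth (hB : NAlt B) {A : Submodule F V} (hA : NAlt (B.restrict A)) (t : Sp (B.restrict A)) {d : V}
    (hd : d ∈ B.orthogonal A) : (emb hB hA t).1 d = d := by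
  have h := glue_apply hB.alt A (sub_nd hA) t.1 0 d hd
  rw [Submodule.coe_zero, zero_add, map_zero, Submodule.coe_zero, zero_add] at h
  exact h

theorem emb_injective (hB : NAlt B) {A : Submodule F V} (hA : NAlt (B.restrict A)) :
    Function.Injective (emb hB hA) := by
  intro s t h
  apply Subtype.ext
  apply LinearEquiv.ext
  intro a
  apply Subtype.ext
  rw [← emb_apply_mem hB hA, ← emb_apply_mem hB hA, h]

/-- two isometries are equal if they agree on `A` and on `A^⊥` -/
theorem ext_orth (hB : NAlt B) {A : Submodule F V} (hA : NAlt (B.restrict A)) {s t : Sp B}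
    (h1 : ∀ a ∈ A, s.1 a = t.1 a) (h2 : ∀ d ∈ B.orthogonal A, s.1 d = t.1 d) : s = t := by
  apply Subtype.ext
  apply LinearEquiv.ext
  intro v
  obtain ⟨c, d, hd, rfl⟩ := exists_decomp hB.alt A (sub_nd hA) v
  rw [map_add, map_add, h1 c c.2, h2 d hd]

theorem emb_tv (hB : NAlt B) {A : Submodule F V} (hA : NAlt (B.restrict A)) (a : A) (c : F) :
    emb hB hA (tv hA a c) = tv hB (a : V) c := by
  apply ext_orth hB hA
  · intro b hb
    rw [show b = ((⟨b, hb⟩ : A) : V) from rfl, emb_apply_mem, tv_apply, tv_apply]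
    rfl
  · intro d hd
    rw [emb_apply_orth hB hA _ hd, tv_apply,
      hB.swap0 ((LinearMap.BilinForm.mem_orthogonal_iff.1 hd) a a.2), mul_zero, zero_smul, add_zero]

end emb

/-- restriction of a semisimilitude to an invariant subspace -/
noncomputable def SS.res [Finite V] (M : SS B) (A : Submodule F V) (hA : ∀ v ∈ A, M v ∈ A) : SS (B.restrict A) where
  f := AddEquiv.ofBijective
    ({ toFun := fun a => ⟨M a, hA a a.2⟩
       map_zero' := Subtype.ext M.map_zero
       map_add' := fun a b => Subtype.ext (M.map_add a b) } : A →+ A) (by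
      rw [← Finite.injective_iff_bijective]
      intro a b h
      exact Subtype.ext (M.injective (congrArg Subtype.val h)))
  σ := M.σ
  l := M.l
  hl := M.hl
  smul' a v := Subtype.ext (M.map_smul a v)
  form' u v := M.form u v

theorem SS.res_apply [Finite V] (M : SS B) (A : Submodule F V) (hA : ∀ v ∈ A, M v ∈ A) (a : A) :
    ((M.res A hA a : A) : V) = M a := rfl

theorem SS.mem_of_mem [Finite V] (M : SS B) (A : Submodule F V) (hA : ∀ v ∈ A, M v ∈ A) {v : V} (hv : M v ∈ A) :
    v ∈ A := by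
  obtain ⟨a, ha⟩ := (M.res A hA).surjective ⟨M v, hv⟩
  have h := congrArg Subtype.val ha
  rw [M.res_apply] at h
  rw [← M.injective h]
  exact a.2

theorem SS.orth_mem [Finite V] (M : SS B) (A : Submodule F V) (hA : ∀ v ∈ A, M v ∈ A) {d : V}
    (hd : d ∈ B.orthogonal A) : M d ∈ B.orthogonal A := by
  rw [LinearMap.BilinForm.mem_orthogonal_iff] at hd ⊢
  intro a ha
  obtain ⟨a', rfl⟩ := M.surjective a
  have h1 := hd a' (M.mem_of_mem A hA ha)
  show B (M a') (M d) = 0
  rw [M.form, show B a' d = 0 from h1, _root_.map_zero, mul_zero]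

theorem cj_emb [Finite V] [FiniteDimensional F V] (hB : NAlt B) {A : Submodule F V} (hA : NAlt (B.restrict A))
    (M : SS B) (hM : ∀ v ∈ A, M v ∈ A) (t : Sp (B.restrict A)) :
    SS.cj M (emb hB hA t) = emb hB hA (SS.cj (M.res A hM) t) := by
  apply SS.cj_eq
  intro v
  obtain ⟨c, d, hd, rfl⟩ := exists_decomp hB.alt A (sub_nd hA) v
  rw [M.map_add, map_add, map_add, M.map_add, emb_apply_orth hB hA _ hd, emb_apply_orth hB hA _ (M.orth_mem A hM hd),
    ← M.res_apply A hM, emb_apply_mem, emb_apply_mem, SS.cj_apply]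
  rfl

end ident

section cent

variable {F : Type u} {V : Type v} [Field F] [AddCommGroup V] [Module F V] {B : LinearMap.BilinForm F V}
  {G : Type*} [Group G] {Ω : Type*} [MulAction G Ω] {N : Subgroup G} {ρ : ↥(Sp B) →* G}

/-- scalars are central in `Sp B` -/
theorem scal_central {t : Sp B} (h : ∃ a : F, ∀ v, t.1 v = a • v) (s : Sp B) : s * t = t * s := by
  obtain ⟨a, ha⟩ := h
  apply Subtype.ext
  apply LinearEquiv.ext
  intro v
  show s.1 (t.1 v) = t.1 (s.1 v)
  rw [ha, ha, map_smul]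

/-- an element centralises the image of a perfect group iff its lift commutes with it -/
theorem SpEnv.cent_iff (E : SpEnv Ω N ρ) {x : G} {M : SS B} (h : Lf ρ x M) {X : Type*} [Group X]
    (j : X →* Sp B) (hperf : commutator X = ⊤) :
    (∀ s, x * ρ (j s) = ρ (j s) * x) ↔ ∀ s v, M ((j s).1 v) = (j s).1 (M v) := by
  constructor
  · intro hx
    have h1 : ∀ s, SS.cj M (j s) * (j s)⁻¹ ∈ ρ.ker := by
      intro s
      rw [MonoidHom.mem_ker, map_mul, map_inv, ← h, hx, mul_inv_cancel_right, mul_inv_cancel]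
    have h2 : ∀ s (u : Sp B), u * (SS.cj M (j s) * (j s)⁻¹) = (SS.cj M (j s) * (j s)⁻¹) * u := fun s u =>
      scal_central ((E.ker _).1 (h1 s)) u
    let φ : X →* Sp B :=
      { toFun := fun s => SS.cj M (j s) * (j s)⁻¹
        map_one' := by simp
        map_mul' := fun s t => by
          have h3 := h2 t (SS.cj M (j s))
          calc SS.cj M (j (s * t)) * (j (s * t))⁻¹
              = (SS.cj M (j s) * (SS.cj M (j t) * (j t)⁻¹)) * (j s)⁻¹ := by
                rw [map_mul, map_mul, mul_inv_rev]; group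
            _ = (SS.cj M (j t) * (j t)⁻¹) * (SS.cj M (j s) * (j s)⁻¹) := by rw [h3, mul_assoc]
            _ = SS.cj M (j s) * (j s)⁻¹ * (SS.cj M (j t) * (j t)⁻¹) := by rw [h2 t] }
    have h3 : commutator X ≤ φ.ker := by
      rw [commutator_def, Subgroup.commutator_le]
      intro a _ b _
      rw [MonoidHom.mem_ker, map_commutatorElement, commutatorElement_eq_one_iff_mul_comm]
      exact (h2 b (φ a))
    intro s v
    have h4 : φ s = 1 := by
      have : s ∈ commutator X := by rw [hperf]; trivial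
      exact h3 this
    have h5 : SS.cj M (j s) = j s := mul_inv_eq_one.1 h4
    have h6 := SS.cj_apply M (j s) v
    rw [h5] at h6
    exact h6.symm
  · intro hM s
    have h1 : SS.cj M (j s) = j s := SS.cj_eq fun v => (hM s v).symm
    have h2 := h (j s)
    rw [h1] at h2
    exact mul_inv_eq_iff_eq_mul.1 h2

/-- the image of a proper subgroup is proper -/
theorem SpEnv.range_ne (E : SpEnv Ω N ρ) (hp : commutator (Sp B) = ⊤) {X : Type*} [Group X] (j : X →* Sp B)
    (hj : ¬ Function.Surjective j) : (ρ.comp j).range ≠ N := by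
  intro hN
  apply hj
  rw [← MonoidHom.range_eq_top]
  have h1 : ∀ t : Sp B, ∃ s, ∀ u : Sp B, u * (t * (j s)⁻¹) = (t * (j s)⁻¹) * u := by
    intro t
    have h2 : ρ t ∈ (ρ.comp j).range := by
      rw [hN, ← E.range]
      exact ⟨t, rfl⟩
    obtain ⟨s, hs⟩ := h2
    refine ⟨s, scal_central ((E.ker _).1 ?_)⟩
    have hs' : ρ (j s) = ρ t := hs
    rw [map_mul, map_inv, hs', mul_inv_cancel]
  rw [eq_top_iff, ← hp, commutator_def, Subgroup.commutator_le]
  intro a _ b _
  obtain ⟨s, hs⟩ := h1 a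
  obtain ⟨t, ht⟩ := h1 b
  refine ⟨⁅s, t⁆, ?_⟩
  rw [map_commutatorElement]
  set z := a * (j s)⁻¹ with hz
  set w := b * (j t)⁻¹ with hw
  have ha : a = z * j s := by rw [hz]; group
  have hb : b = w * j t := by rw [hw]; group
  have hzc : ∀ u, Commute u z := hs
  have hwc : ∀ u, Commute u w := ht
  rw [ha, hb, commutatorElement_def, commutatorElement_def]
  have e1 : z * j s * (w * j t) * (z * j s)⁻¹ * (w * j t)⁻¹ =
      z * (j s * w) * j t * (j s)⁻¹ * z⁻¹ * (j t)⁻¹ * w⁻¹ := by group
  rw [e1, (hwc (j s)).eq]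
  have e2 : z * (w * j s) * j t * (j s)⁻¹ * z⁻¹ * (j t)⁻¹ * w⁻¹ =
      z * (w * j s * j t * (j s)⁻¹) * z⁻¹ * (j t)⁻¹ * w⁻¹ := by group
  rw [e2, ← (hzc _).eq]
  have e3 : w * j s * j t * (j s)⁻¹ * z * z⁻¹ * (j t)⁻¹ * w⁻¹ =
      w * (j s * j t * (j s)⁻¹ * (j t)⁻¹) * w⁻¹ := by group
  rw [e3, ← (hwc _).eq, mul_inv_cancel_right]

end cent

section mrule

variable {F : Type u} {V : Type v} [Field F] [AddCommGroup V] [Module F V] {B : LinearMap.BilinForm F V}

/-- the M-rule for an injective homomorphism `j : X →* Sp B`; `X` perfect, `X / Z(X)` simple and either classical, not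
exceptional, or only one of the elements acts nontrivially -/
theorem SpEnv.mrule {G : Type} [Group G] [Finite G] {Ω : Type} [MulAction G Ω] {N : Subgroup G} {ρ : ↥(Sp B) →* G}
    (E : SpEnv Ω N ρ) (hIH : IH (Nat.card N)) {X : Type} [Group X] [Finite X] (j : X →* Sp B)
    (hj : Function.Injective j) (hne : (ρ.comp j).range ≠ N) (hperf : commutator X = ⊤)
    (h1 : IsSimpleGroup (X ⧸ Subgroup.center X)) (h2 : ¬ IsMulCommutative (X ⧸ Subgroup.center X))
    {ι : Type} [Finite ι] {x : ι → G} {r : ι → ℕ} {M : ι → SS B} (hl : ∀ i, Lf ρ (x i) (M i)) (hx : PF x r)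
    (hcov : Cov Ω x) (hnorm : ∀ i (s : X), ∃ s', SS.cj (M i) (j s) = j s')
    (hg : (Cl (X ⧸ Subgroup.center X) ∧ ¬ Exc (X ⧸ Subgroup.center X)) ∨
      ∃ i₀, ∀ i, i ≠ i₀ → ∀ s, x i * ρ (j s) = ρ (j s) * x i) (ω : Ω) :
    (∀ s, ρ (j s) • ω = ω) ∨ ∃ i, (∀ s, x i * ρ (j s) = ρ (j s) * x i) ∧ x i • ω = ω := by
  set f : X →* G := ρ.comp j with hf
  have hker : ∀ s, f s = 1 → s ∈ Subgroup.center X := by
    intro s hs
    rw [Subgroup.mem_center_iff]
    intro t
    apply hj
    rw [map_mul, map_mul]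
    exact scal_central ((E.ker _).1 hs) (j t)
  set K : Subgroup G := f.range with hK
  have hKperf : ⁅K, K⁆ = K := by
    have h3 := Subgroup.map_commutator (⊤ : Subgroup X) ⊤ f
    rw [← commutator_def, hperf, ← MonoidHom.range_eq_map] at h3
    exact h3.symm
  have hlift : ∀ m : K, ∃ s, f s = m := fun m => m.2
  let π : K →* X ⧸ Subgroup.center X :=
    { toFun := fun m => QuotientGroup.mk (hlift m).choose
      map_one' := by
        rw [QuotientGroup.eq_one_iff]
        exact hker _ (hlift 1).choose_spec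
      map_mul' := fun m n => by
        rw [← QuotientGroup.mk_mul, QuotientGroup.eq]
        apply hker
        rw [map_mul, map_inv, map_mul, (hlift _).choose_spec, (hlift _).choose_spec, (hlift _).choose_spec]
        rw [Subgroup.coe_mul]
        group }
  have hπ : ∀ s, π ⟨f s, s, rfl⟩ = QuotientGroup.mk s := by
    intro s
    show QuotientGroup.mk (hlift ⟨f s, s, rfl⟩).choose = _
    rw [QuotientGroup.eq]
    apply hker
    rw [map_mul, map_inv, (hlift _).choose_spec, inv_mul_cancel]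
  have hπs : Function.Surjective π := by
    intro y
    obtain ⟨s, rfl⟩ := QuotientGroup.mk_surjective y
    exact ⟨_, hπ s⟩
  have hπk : π.ker ≤ Subgroup.center K := by
    rintro ⟨_, s, rfl⟩ hs
    rw [MonoidHom.mem_ker] at hs
    rw [hπ, QuotientGroup.eq_one_iff] at hs
    rw [Subgroup.mem_center_iff]
    rintro ⟨_, t, rfl⟩
    apply Subtype.ext
    show f t * f s = f s * f t
    rw [← map_mul, ← map_mul, Subgroup.mem_center_iff.1 hs]
  have hKN : K ≤ N := by
    rintro _ ⟨s, rfl⟩
    rw [← E.range]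
    exact ⟨j s, rfl⟩
  have hnK : ∀ i, x i ∈ Subgroup.normalizer (K : Set G) := by
    intro i
    have h3 : ∀ m ∈ K, x i * m * (x i)⁻¹ ∈ K := by
      rintro _ ⟨s, rfl⟩
      obtain ⟨s', hs'⟩ := hnorm i s
      refine ⟨s', ?_⟩
      show ρ (j s') = x i * ρ (j s) * (x i)⁻¹
      rw [hl i, hs']
    rw [Subgroup.mem_normalizer_iff]
    intro m
    refine ⟨fun hm => h3 m hm, fun hm => ?_⟩
    have h4 : ∀ n : ℕ, x i ^ n * (x i * m * (x i)⁻¹) * (x i ^ n)⁻¹ ∈ K := by
      intro n
      induction n with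
      | zero => simpa using hm
      | succ n ih =>
        have h5 := h3 _ ih
        have h6 : x i * (x i ^ n * (x i * m * (x i)⁻¹) * (x i ^ n)⁻¹) * (x i)⁻¹ =
            x i ^ (n + 1) * (x i * m * (x i)⁻¹) * (x i ^ (n + 1))⁻¹ := by
          rw [pow_succ']
          group
        rwa [h6] at h5
    obtain ⟨n, hn⟩ : ∃ n, r i = n + 1 := ⟨r i - 1, by have := (hx.prime i).pos; omega⟩
    have h4 := h4 n
    have h5 : x i ^ n = (x i)⁻¹ := by
      rw [eq_inv_iff_mul_eq_one, ← pow_succ, ← hn]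
      exact hx.pow i
    rw [h5] at h4
    have h6 : (x i)⁻¹ * (x i * m * (x i)⁻¹) * ((x i)⁻¹)⁻¹ = m := by group
    rwa [h6] at h4
  have hconv : (K ≤ stabilizer G ω ∨ ∃ i, (∀ m ∈ K, x i * m = m * x i) ∧ x i • ω = ω) →
      ((∀ s, ρ (j s) • ω = ω) ∨ ∃ i, (∀ s, x i * ρ (j s) = ρ (j s) * x i) ∧ x i • ω = ω) := by
    rintro (h3 | ⟨i, h3, h4⟩)
    · exact Or.inl fun s => h3 ⟨s, rfl⟩
    · exact Or.inr ⟨i, fun s => h3 _ ⟨s, rfl⟩, h4⟩
  apply hconv
  rcases hg with ⟨hcl, hexc⟩ | ⟨i₀, hi₀⟩
  · exact mrule_IH (S := N) hIH (MulEquiv.refl N) hKN hne hKperf π hπs hπk h1 h2 hcl hexc hx hcov hnK ω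
  · exact mrule_one h1 h2 x r hx.prime hx.inj hx.pow hx.comm K hKperf π hπs hπk i₀ (hnK i₀)
      (fun i hi m hm => by
        obtain ⟨s, rfl⟩ := hm
        exact hi₀ i hi s) ω (fun m _ => hcov _)

end mrule

end Cfsg.Agent.H520.RC
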