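import Cfsg.Agent.H520.RC.BoxGPol
import Cfsg.Agent.LieClassical.OrthFinite
import Cfsg.Agent.H16.Og.Seven

/-!
# S3510, triality type iii, box G: one semisimple isometry (helper520)

`Sn Q s n` : `s` is an isometry, `s ^ n = 1`, `n ≠ 0` in `F`;
`Rn Q s R` : `R` is nondegenerate and invariant under the isometries commuting with `s`.
-/

set_option autoImplicit false
set_option linter.unusedSectionVars false

namespace Cfsg.Agent.H520.RC

open Polynomial Module QuadraticMap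
open Cfsg.Agent.LieClassical.OrthCore Cfsg.Agent.LieClassical.OrthTrans

variable {F V : Type*} [Field F] [AddCommGroup V] [Module F V] {Q : QuadraticForm F V} {s : V ≃ₗ[F] V} {n : ℕ}
  {R : Submodule F V}

/-- a semisimple isometry -/
structure Sn (Q : QuadraticForm F V) (s : V ≃ₗ[F] V) (n : ℕ) : Prop where
  nd : Nondeg Q
  mem : s ∈ O Q
  pow : s ^ n = 1
  ne : (n : F) ≠ 0

/-- nondegenerate and invariant -/
structure Rn (Q : QuadraticForm F V) (s : V ≃ₗ[F] V) (R : Submodule F V) : Prop where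
  nd : ∀ v ∈ R, (∀ w ∈ R, polar Q v w = 0) → v = 0
  can : ∀ c ∈ O Q, c * s = s * c → ∀ v ∈ R, c v ∈ R

/-- polynomials in `s` -/
noncomputable def ev (s : V ≃ₗ[F] V) (f : F[X]) : Module.End F V := aeval (s : V →ₗ[F] V) f

theorem Sn.pos (h : Sn Q s n) : 0 < n := Nat.pos_of_ne_zero (fun h0 => h.ne (by rw [h0, Nat.cast_zero]))

theorem Sn.inv (h : Sn Q s n) : Sn Q s⁻¹ n := ⟨h.nd, inv_mem h.mem, by rw [inv_pow, h.pow, inv_one], h.ne⟩

theorem Rn.inv (h : Rn Q s R) : Rn Q s⁻¹ R := ⟨h.nd, fun c hc h1 => h.can c hc (by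
  have h2 : s * (c * s⁻¹) * s = s * (s⁻¹ * c) * s := by rw [h1]
  simpa [mul_assoc] using h2.symm)⟩

theorem Rn.s_mem (hR : Rn Q s R) (h : s ∈ O Q) {v : V} (hv : v ∈ R) : s v ∈ R := hR.can s h rfl v hv

theorem Rn.sinv_mem (hR : Rn Q s R) (h : s ∈ O Q) {v : V} (hv : v ∈ R) : s⁻¹ v ∈ R :=
  hR.can s⁻¹ (inv_mem h) (by rw [inv_mul_cancel, mul_inv_cancel]) v hv

theorem ev_mul (s : V ≃ₗ[F] V) (f g : F[X]) (v : V) : ev s (f * g) v = ev s f (ev s g v) := by
  rw [ev, map_mul]; rfl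

theorem ev_mul' (s : V ≃ₗ[F] V) (f g : F[X]) (v : V) : ev s (f * g) v = ev s g (ev s f v) := by
  rw [mul_comm, ev_mul]

theorem ev_add (s : V ≃ₗ[F] V) (f g : F[X]) (v : V) : ev s (f + g) v = ev s f v + ev s g v := by
  rw [ev, map_add]; rfl

theorem ev_sub (s : V ≃ₗ[F] V) (f g : F[X]) (v : V) : ev s (f - g) v = ev s f v - ev s g v := by
  rw [ev, map_sub]; rfl

theorem ev_one (s : V ≃ₗ[F] V) (v : V) : ev s 1 v = v := by
  rw [ev, map_one]; rfl

theorem ev_X (s : V ≃ₗ[F] V) (v : V) : ev s X v = s v := by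
  rw [ev, aeval_X]; rfl

theorem ev_C (s : V ≃ₗ[F] V) (a : F) (v : V) : ev s (C a) v = a • v := by
  rw [ev, aeval_C]; rfl

theorem ev_pow_succ (s : V ≃ₗ[F] V) (f : F[X]) (m : ℕ) (v : V) : ev s (f ^ (m + 1)) v = ev s f (ev s (f ^ m) v) := by
  rw [pow_succ', ev_mul]

theorem ev_end_pow (s : V ≃ₗ[F] V) (f : F[X]) (m : ℕ) (v : V) : (ev s f ^ m) v = ev s (f ^ m) v := by
  rw [ev, ev, map_pow]

theorem ev_X_pow (s : V ≃ₗ[F] V) (m : ℕ) (v : V) : ev s (X ^ m) v = (s ^ m) v := by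
  induction m generalizing v with
  | zero => rw [pow_zero, ev_one, pow_zero]; rfl
  | succ m ih => rw [pow_succ, ev_mul, ev_X, ih, pow_succ]; rfl

theorem ev_inv_mem (hR : ∀ v ∈ R, s v ∈ R) (f : F[X]) {v : V} (hv : v ∈ R) : ev s f v ∈ R := by
  induction f using Polynomial.induction_on' generalizing v with
  | add p q hp hq => rw [ev_add]; exact R.add_mem (hp hv) (hq hv)
  | monomial m a =>
    rw [← C_mul_X_pow_eq_monomial, ev_mul, ev_C, ev_X_pow]
    apply R.smul_mem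
    induction m generalizing v with
    | zero => rw [pow_zero]; exact hv
    | succ m ih => rw [pow_succ]; exact ih (hR v hv)

theorem ev_comm (s : V ≃ₗ[F] V) (c : V →ₗ[F] V) (hc : ∀ v, c (s v) = s (c v)) (f : F[X]) (v : V) :
    c (ev s f v) = ev s f (c v) := by
  induction f using Polynomial.induction_on' generalizing v with
  | add p q hp hq => rw [ev_add, ev_add, map_add, hp, hq]
  | monomial m a =>
    rw [← C_mul_X_pow_eq_monomial, ev_mul, ev_C, ev_X_pow, ev_mul, ev_C, ev_X_pow, map_smul]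
    congr 1
    induction m generalizing v with
    | zero => rfl
    | succ m ih =>
      rw [pow_succ]
      show c ((s ^ m) (s v)) = (s ^ m) (s (c v))
      rw [ih, hc]

theorem polar_s (h : s ∈ O Q) (v w : V) : polar Q (s v) w = polar Q v (s⁻¹ w) := by
  have h1 := polar_map h v (s⁻¹ w)
  have h2 : s (s⁻¹ w) = w := LinearEquiv.apply_symm_apply s w
  rw [h2] at h1
  exact h1

/-- the adjoint of `f (s)` is `f (s⁻¹)` -/
theorem adj (h : s ∈ O Q) (f : F[X]) (v w : V) : polar Q (ev s f v) w = polar Q v (ev s⁻¹ f w) := by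
  induction f using Polynomial.induction_on' generalizing v w with
  | add p q hp hq => rw [ev_add, ev_add, polar_add_left, polar_add_right, hp, hq]
  | monomial m a =>
    rw [← C_mul_X_pow_eq_monomial, ev_mul, ev_C, ev_X_pow, ev_mul, ev_C, ev_X_pow, polar_smul_left,
      polar_smul_right]
    congr 1
    induction m generalizing v w with
    | zero => rw [pow_zero, pow_zero]; rfl
    | succ m ih =>
      rw [pow_succ, pow_succ']
      show polar Q ((s ^ m) (s v)) w = polar Q v (s⁻¹ ((s⁻¹ ^ m) w))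
      rw [ih, polar_s h]

theorem adj' (h : s ∈ O Q) (f : F[X]) (v w : V) : polar Q (ev s⁻¹ f v) w = polar Q v (ev s f w) := by
  have := adj (inv_mem h) f v w
  rwa [inv_inv] at this

section fin

variable [Finite F]

theorem Sn.frob (h : Sn Q s n) : ∃ N : ℕ, 2 ≤ N ∧ ∀ (f : F[X]) (v : V), ev s (f ^ N) v = ev s f v := by
  have h1 : (s : V →ₗ[F] V) ^ n = 1 := by
    apply LinearMap.ext
    intro v
    have h2 := ev_X_pow s n v
    rw [h.pow] at h2
    rw [ev, map_pow, aeval_X] at h2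
    exact h2
  obtain ⟨N, hN, h2⟩ := exists_frob (F := F) h1 h.ne
  refine ⟨N, hN, fun f v => ?_⟩
  rw [ev, map_pow, h2]
  rfl

/-- the pairing of `ker f (s)` and `ker f (s⁻¹)` is perfect -/
theorem pair (h : Sn Q s n) (hR : Rn Q s R) (f : F[X]) {v : V} (hv : v ∈ R) (hf : ev s f v = 0) (hv0 : v ≠ 0) :
    ∃ w ∈ R, ev s⁻¹ f w = 0 ∧ polar Q v w ≠ 0 := by
  obtain ⟨N, hN, h1⟩ := h.inv.frob
  obtain ⟨w, hw, hvw⟩ : ∃ w ∈ R, polar Q v w ≠ 0 := by
    by_contra hcon
    push Not at hcon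
    exact hv0 (hR.nd v hv hcon)
  obtain ⟨m, rfl⟩ : ∃ m, N = m + 1 + 1 := ⟨N - 2, by omega⟩
  refine ⟨w - ev s⁻¹ (f ^ (m + 1)) w, R.sub_mem hw (ev_inv_mem (fun v hv => hR.sinv_mem h.mem hv) _ hw), ?_, ?_⟩
  · rw [map_sub, ← ev_pow_succ, h1, sub_self]
  · rw [polar_sub_right, ev_pow_succ, ← adj h.mem, hf, polar_zero_left, sub_zero]
    exact hvw

end fin

theorem ev_dvd {f g : F[X]} (h : f ∣ g) {v : V} (hv : ev s f v = 0) : ev s g v = 0 := by
  obtain ⟨k, rfl⟩ := h
  rw [ev_mul', hv, map_zero]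

/-- the annihilator of `v ≠ 0`, `f (s) v = 0`, `f` irreducible -/
theorem dvd_of_ev {f g : F[X]} (hf : Irreducible f) {v : V} (hv : ev s f v = 0) (hv0 : v ≠ 0) (hg : ev s g v = 0) :
    f ∣ g := by
  by_contra hn
  obtain ⟨a, b, hab⟩ := (hf.coprime_iff_not_dvd.2 hn)
  apply hv0
  rw [← ev_one s v, ← hab, ev_add, ev_mul, ev_mul, hv, hg, map_zero, map_zero, add_zero]

/-- `f (s⁻¹)` as a polynomial in `s` -/
noncomputable def til (n : ℕ) (f : F[X]) : F[X] := f.comp (X ^ (n - 1))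

theorem Sn.s_inv (h : Sn Q s n) : s⁻¹ = s ^ (n - 1) := by
  have h1 : s ^ (n - 1) * s = 1 := by rw [← pow_succ, Nat.sub_add_cancel h.pos, h.pow]
  exact (eq_inv_of_mul_eq_one_left h1).symm

theorem ev_til (h : Sn Q s n) (f : F[X]) (v : V) : ev s (til n f) v = ev s⁻¹ f v := by
  have h2 : aeval (s : V →ₗ[F] V) (X ^ (n - 1) : F[X]) = ((s⁻¹ : V ≃ₗ[F] V) : V →ₗ[F] V) := by
    apply LinearMap.ext
    intro w
    have h1 := ev_X_pow s (n - 1) w
    rw [ev] at h1
    rw [h1, h.s_inv]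
    rfl
  rw [ev, til, aeval_comp, ev, h2]

/-- an irreducible polynomial with a kernel -/
theorem exists_irr {g : F[X]} (hg : g ≠ 0) (hR : ∀ v ∈ R, s v ∈ R) {v : V} (hv : v ∈ R) (hv0 : v ≠ 0)
    (hgv : ev s g v = 0) : ∃ f : F[X], f.Monic ∧ Irreducible f ∧ ∃ w ∈ R, w ≠ 0 ∧ ev s f w = 0 := by
  induction g using WfDvdMonoid.induction_on_irreducible generalizing v with
  | zero => exact absurd rfl hg
  | unit u hu =>
    exfalso
    obtain ⟨a, ha⟩ := hu.exists_left_inv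
    apply hv0
    rw [← ev_one s v, ← ha, ev_mul, hgv, map_zero]
  | mul a i ha hi ih =>
    by_cases h1 : ev s a v = 0
    · exact ih ha hv hv0 h1
    · refine ⟨i * C i.leadingCoeff⁻¹, monic_mul_leadingCoeff_inv hi.ne_zero, ?_, ev s a v, ev_inv_mem hR _ hv, h1, ?_⟩
      · have h2 : IsUnit (C i.leadingCoeff⁻¹) := isUnit_C.2 (isUnit_iff_ne_zero.2 (inv_ne_zero
          (leadingCoeff_ne_zero.2 hi.ne_zero)))
        exact (irreducible_mul_isUnit h2).2 hi
      · rw [ev_mul', ev_C, ← ev_mul, hgv, smul_zero]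

/-! ### Orthogonal complements -/

/-- the orthogonal complement -/
def pp (Q : QuadraticForm F V) (B : Submodule F V) : Submodule F V where
  carrier := {w | ∀ v ∈ B, polar Q v w = 0}
  zero_mem' := fun v _ => polar_zero_right Q v
  add_mem' := fun ha hb v hv => by rw [polar_add_right, ha v hv, hb v hv, add_zero]
  smul_mem' := fun c a ha v hv => by rw [polar_smul_right, ha v hv, smul_zero]

theorem mem_pp {B : Submodule F V} {w : V} : w ∈ pp Q B ↔ ∀ v ∈ B, polar Q v w = 0 := Iff.rfl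

section fd

variable [FiniteDimensional F V] {B : Submodule F V}

theorem exists_proj (hB : ∀ v ∈ B, (∀ w ∈ B, polar Q v w = 0) → v = 0) (v : V) : ∃ b ∈ B, v - b ∈ pp Q B := by
  let φ : B →ₗ[F] Module.Dual F B := ((polarBilin Q).domRestrict₁₂ B B)
  have h1 : Function.Injective φ := by
    rw [← LinearMap.ker_eq_bot, LinearMap.ker_eq_bot']
    intro b hb
    apply Subtype.ext
    apply hB b b.2
    intro w hw
    have h2 := LinearMap.congr_fun hb ⟨w, hw⟩
    exact h2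
  have h2 : Function.Surjective φ :=
    (LinearMap.injective_iff_surjective_of_finrank_eq_finrank Subspace.dual_finrank_eq.symm).1 h1
  obtain ⟨b, hb⟩ := h2 ((polarBilin Q v).comp B.subtype)
  refine ⟨b, b.2, fun w hw => ?_⟩
  have h3 := LinearMap.congr_fun hb ⟨w, hw⟩
  have h4 : polar Q (b : V) w = polar Q v w := h3
  rw [polar_sub_right, polar_comm Q w v, polar_comm Q w b, h4, sub_self]

theorem isCompl_pp (hB : ∀ v ∈ B, (∀ w ∈ B, polar Q v w = 0) → v = 0) : IsCompl B (pp Q B) := by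
  constructor
  · rw [Submodule.disjoint_def]
    intro v hv hv'
    exact hB v hv fun w hw => by rw [polar_comm]; exact hv' w hw
  · rw [codisjoint_iff_le_sup]
    intro v _
    obtain ⟨b, hb, hb'⟩ := exists_proj hB v
    rw [← add_sub_cancel b v]
    exact Submodule.add_mem_sup hb hb'

theorem pp_nd (hQ : Nondeg Q) (hB : ∀ v ∈ B, (∀ w ∈ B, polar Q v w = 0) → v = 0) :
    ∀ v ∈ pp Q B, (∀ w ∈ pp Q B, polar Q v w = 0) → v = 0 := by
  intro v hv h
  apply hQ
  intro y
  obtain ⟨b, hb, hb'⟩ := exists_proj hB y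
  rw [← add_sub_cancel b y, polar_add_right, h _ hb', add_zero, polar_comm]
  exact hv b hb

/-- extension by the identity -/
theorem exists_ext (hQ : Nondeg Q) (hB : ∀ v ∈ B, (∀ w ∈ B, polar Q v w = 0) → v = 0)
    (C : V →ₗ[F] V) (hC : ∀ v ∈ B, C v ∈ B) (hCQ : ∀ v ∈ B, Q (C v) = Q v) :
    ∃ c ∈ O Q, (∀ v ∈ B, c v = C v) ∧ ∀ w ∈ pp Q B, c w = w := by
  have hcomp := isCompl_pp hB
  let π : V →ₗ[F] V := B.subtype ∘ₗ B.projectionOnto (pp Q B) hcomp
  have hπ : ∀ v, π v ∈ B := fun v => (B.projectionOnto (pp Q B) hcomp v).2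
  have hπB : ∀ v ∈ B, π v = v := by
    intro v hv
    have := Submodule.projectionOnto_apply_left hcomp ⟨v, hv⟩
    show ((B.projectionOnto (pp Q B) hcomp v : B) : V) = v
    rw [this]
  have hπP : ∀ v ∈ pp Q B, π v = 0 := by
    intro v hv
    show ((B.projectionOnto (pp Q B) hcomp v : B) : V) = 0
    rw [(Submodule.projectionOnto_apply_eq_zero_iff hcomp).2 hv]
    rfl
  have hd : ∀ v, v - π v ∈ pp Q B := by
    intro v
    obtain ⟨b, hb, hb'⟩ := exists_proj hB v
    have h1 : π v = b := by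
      rw [← add_sub_cancel b v, map_add, hπB b hb, hπP _ hb', add_zero]
    rw [h1]
    exact hb'
  let L : V →ₗ[F] V := C ∘ₗ π + (LinearMap.id - π)
  have hL : ∀ v, L v = C (π v) + (v - π v) := fun v => rfl
  have hLQ : ∀ v, Q (L v) = Q v := by
    intro v
    have h1 : polar Q (C (π v)) (v - π v) = 0 := hd v _ (hC _ (hπ v))
    have h2 : polar Q (π v) (v - π v) = 0 := hd v _ (hπ v)
    rw [hL, Q_add, h1, hCQ _ (hπ v)]
    conv_rhs => rw [← add_sub_cancel (π v) v, Q_add, h2]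
  have hinj : Function.Injective L := by
    rw [← LinearMap.ker_eq_bot, LinearMap.ker_eq_bot']
    intro v hv
    apply hQ
    intro y
    have h1 : polar Q v y = polar Q (L v) (L y) := by
      simp only [polar, ← map_add, hLQ]
    rw [h1, hv, polar_zero_left]
  let c : V ≃ₗ[F] V := LinearEquiv.ofInjectiveEndo L hinj
  have hc : ∀ v, c v = L v := fun v => rfl
  refine ⟨c, fun v => by rw [hc, hLQ], fun v hv => ?_, fun v hv => ?_⟩
  · rw [hc, hL, hπB v hv, sub_self, add_zero]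
  · rw [hc, hL, hπP v hv, map_zero, zero_add, sub_zero]

/-- equality of maps on `B` and on `pp B` -/
theorem eq_of_split (hB : ∀ v ∈ B, (∀ w ∈ B, polar Q v w = 0) → v = 0) {a b : V ≃ₗ[F] V}
    (h1 : ∀ v ∈ B, a v = b v) (h2 : ∀ v ∈ pp Q B, a v = b v) : a = b := by
  apply LinearEquiv.ext
  intro v
  obtain ⟨u, hu, hu'⟩ := exists_proj hB v
  rw [← add_sub_cancel u v, map_add, map_add, h1 u hu, h2 _ hu']

theorem pp_inv {c : V ≃ₗ[F] V} (hc : c ∈ O Q) (hcB : ∀ v ∈ B, c v ∈ B) : ∀ v ∈ pp Q B, c v ∈ pp Q B := by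
  intro v hv w hw
  obtain ⟨u, rfl⟩ : ∃ u : B, c u = w := by
    have h1 : Function.Injective ((c : V →ₗ[F] V).restrict hcB) := by
      intro a b hab
      apply Subtype.ext
      exact c.injective (congrArg Subtype.val hab)
    obtain ⟨u, hu⟩ := LinearMap.surjective_of_injective h1 ⟨w, hw⟩
    exact ⟨u, congrArg Subtype.val hu⟩
  rw [polar_map hc]
  exact hv u u.2

end fd

end Cfsg.Agent.H520.RC
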