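import Cfsg.Agent.H520.RC.BoxGFin

/-!
# S3510, triality type iii, box G: the eigenvalues `1`, `-1` and the end for one isometry (helper520)
-/

set_option autoImplicit false
set_option linter.unusedSectionVars false
set_option linter.unusedSimpArgs false

namespace Cfsg.Agent.H520.RC

open Polynomial Module QuadraticMap
open Cfsg.Agent.LieClassical.OrthCore Cfsg.Agent.LieClassical.OrthTrans
open Cfsg.Agent.H182.Sign (HasSign)

variable {F V : Type*} [Field F] [Finite F] [AddCommGroup V] [Module F V] [FiniteDimensional F V] [Finite V]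
  {Q : QuadraticForm F V} {s : V ≃ₗ[F] V} {n p : ℕ} {R B : Submodule F V} {ε : F}

/-- the eigenspace -/
noncomputable def Ke (s : V ≃ₗ[F] V) (ε : F) : Submodule F V := LinearMap.ker (ev s (X - C ε))

theorem mem_Ke {v : V} : v ∈ Ke s ε ↔ s v = ε • v := by
  rw [Ke, LinearMap.mem_ker, ev_sub, ev_X, ev_C, sub_eq_zero]

theorem Ke_rn (h : Sn Q s n) (hε : ε * ε = 1) : Rn Q s (Ke s ε) := by
  constructor
  · intro v hv hvv
    by_contra hv0
    obtain ⟨w, -, hw1, hw2⟩ := pair h (rn_top h.nd) (X - C ε) (v := v) trivial hv hv0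
    apply hw2
    apply hvv
    rw [mem_Ke]
    rw [ev_sub, ev_X, ev_C, sub_eq_zero] at hw1
    have h1 : s (s⁻¹ w) = w := LinearEquiv.apply_symm_apply s w
    rw [hw1, map_smul] at h1
    rw [← h1, smul_smul, hε, one_smul, h1]
  · intro c hc hcs v hv
    rw [mem_Ke] at hv ⊢
    have h1 : c (s v) = s (c v) := LinearEquiv.congr_fun hcs v
    rw [← h1, hv, map_smul]

theorem Ke_le [CharP F p] (h : Sn Q s n) (hp : Np Q s p) (hε : ε * ε = 1) : finrank F (Ke s ε) ≤ 2 := by
  by_contra hlt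
  have hR := Ke_rn h hε
  have hε0 : ε ≠ 0 := by rintro rfl; rw [mul_zero] at hε; exact zero_ne_one hε
  obtain ⟨u, hu, hu0, hQu⟩ := Cfsg.Agent.LieClassical.OrthFinite.exists_sing_mem (Q := Q) (Ke s ε) (by omega)
  obtain ⟨y, hy, hyu⟩ : ∃ y ∈ Ke s ε, polar Q u y ≠ 0 := by
    by_contra hcon
    push Not at hcon
    exact hu0 (hR.nd u hu hcon)
  obtain ⟨w, hw, hw0, hwp⟩ := exists_perp (Q := Q) (K := Ke s ε) (m := 2) ![u, y] (by omega)
  have hinv : ε⁻¹ = ε := inv_eq_of_mul_eq_one_left hε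
  refine no_eigen hp h.nd h.mem hQu (hwp 0) hu0 ?_ hε0 (mem_Ke.1 hu) (w := w) ?_
  · intro a ha
    have h1 : polar Q y w = 0 := hwp 1
    rw [ha, polar_smul_right, polar_comm, smul_eq_mul] at h1
    apply hw0
    rw [ha, (mul_eq_zero.1 h1).resolve_right hyu, zero_smul]
  · rw [hinv]; exact mem_Ke.1 hw

theorem odd_swap {c : V ≃ₗ[F] V} (hc : c ∈ O Q) {u u' : V} (hu : Q u = 0) (hu' : Q u' = 0) (hne : polar Q u u' ≠ 0)
    (h1 : ∀ x : V, (∃ a b : F, x = a • u + b • u') → ∃ a b : F, c x = a • u + b • u') {m : ℕ} (hm : Odd m)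
    (hcm : c ^ m = 1) : ∃ a : F, c u = a • u := by
  have hu0 : u ≠ 0 := by rintro rfl; exact hne (polar_zero_left Q _)
  have key : ∀ x : V, Q x = 0 → (∃ a b : F, x = a • u + b • u') → (∃ a : F, x = a • u) ∨ ∃ a : F, x = a • u' := by
    rintro x hx ⟨a, b, rfl⟩
    rw [Q_add, QuadraticMap.map_smul, QuadraticMap.map_smul, hu, hu', polar_smul_left, polar_smul_right] at hx
    simp only [smul_zero, smul_eq_mul, mul_zero, add_zero, zero_add] at hx
    rcases mul_eq_zero.1 hx with h2 | h2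
    · right; exact ⟨b, by rw [h2, zero_smul, zero_add]⟩
    · left; exact ⟨a, by rw [(mul_eq_zero.1 h2).resolve_right hne, zero_smul, add_zero]⟩
  rcases key (c u) (by rw [hc, hu]) (h1 u ⟨1, 0, by simp⟩) with h2 | ⟨b, hb⟩
  · exact h2
  exfalso
  have hb0 : b ≠ 0 := by
    rintro rfl
    rw [zero_smul] at hb
    exact hu0 (by simpa using hb)
  obtain ⟨a, ha⟩ : ∃ a : F, c u' = a • u := by
    rcases key (c u') (by rw [hc, hu']) (h1 u' ⟨0, 1, by simp⟩) with h3 | ⟨a, ha⟩
    · exact h3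
    · exfalso
      apply hne
      have h3 := polar_map hc u u'
      rw [hb, ha, polar_smul_left, polar_smul_right, polar_self_of_sing hu'] at h3
      rw [← h3]
      simp
  have h3 : ∀ j : ℕ, ∃ x : F, (c ^ (2 * j)) u = x • u := by
    intro j
    induction j with
    | zero => exact ⟨1, by rw [mul_zero, pow_zero, one_smul]; rfl⟩
    | succ j ih =>
      obtain ⟨x, hx⟩ := ih
      refine ⟨b * a * x, ?_⟩
      have e : (c ^ (2 * (j + 1))) u = c (c ((c ^ (2 * j)) u)) := by
        rw [show 2 * (j + 1) = 2 * j + 1 + 1 by ring, pow_succ', pow_succ']; rfl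
      rw [e, hx, map_smul, map_smul, hb, map_smul, ha, smul_smul, smul_smul]
      congr 1
      ring
  obtain ⟨j, rfl⟩ := hm
  obtain ⟨x, hx⟩ := h3 j
  have e : (c ^ (2 * j + 1)) u = c ((c ^ (2 * j)) u) := by rw [pow_succ']; rfl
  rw [hx, map_smul, hb, hcm] at e
  have e' : u = (x * b) • u' := by rw [mul_smul]; exact e
  apply hne
  rw [e', polar_smul_left, polar_self_of_sing hu', smul_zero]

theorem Ke_two (h : Sn Q s n) (hε : ε * ε = 1) (h2 : finrank F (Ke s ε) = 2) :
    PA Q s (Ke s ε) ∨ ∃ u u' : V, PH Q s u u' ∧ Submodule.span F {u, u'} = Ke s ε := by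
  have hR := Ke_rn h hε
  by_cases hs : ∃ u ∈ Ke s ε, Q u = 0 ∧ u ≠ 0
  · right
    obtain ⟨u, hu, hQu, hu0⟩ := hs
    obtain ⟨y, hy, hyu⟩ : ∃ y ∈ Ke s ε, polar Q u y ≠ 0 := by
      by_contra hcon
      push Not at hcon
      exact hu0 (hR.nd u hu hcon)
    set u' : V := y - (Q y / polar Q u y) • u with hu'def
    have hu' : u' ∈ Ke s ε := Submodule.sub_mem _ hy (Submodule.smul_mem _ _ hu)
    have hp' : polar Q u u' = polar Q u y := by
      rw [hu'def, polar_sub_right, polar_smul_right, polar_self_of_sing hQu, smul_zero, sub_zero]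
    have hQu' : Q u' = 0 := by
      rw [hu'def, sub_eq_add_neg, ← neg_smul, Q_add, QuadraticMap.map_smul, hQu, polar_smul_right, polar_comm Q y u,
        smul_zero, add_zero, smul_eq_mul]
      field_simp
      ring
    have hne : polar Q u u' ≠ 0 := by rw [hp']; exact hyu
    have hli : ∀ a b : F, a • u + b • u' = 0 → a = 0 ∧ b = 0 := by
      intro a b hab
      have h3 := congrArg (fun v => polar Q v u') hab
      have h4 := congrArg (fun v => polar Q u v) hab
      simp only [polar_add_left, polar_smul_left, polar_self_of_sing hQu', mul_zero, smul_zero, add_zero, smul_eq_mul,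
        polar_zero_left] at h3
      simp only [polar_add_right, polar_smul_right, polar_self_of_sing hQu, mul_zero, smul_zero, zero_add, smul_eq_mul,
        polar_zero_right] at h4
      exact ⟨(mul_eq_zero.1 h3).resolve_right hne, (mul_eq_zero.1 h4).resolve_right hne⟩
    have hspan : Submodule.span F {u, u'} = Ke s ε := by
      apply Submodule.eq_of_le_of_finrank_eq
      · rw [Submodule.span_le]
        rintro x (rfl | rfl)
        · exact hu
        · exact hu'
      · rw [h2]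
        have := finrank_span_eq_card (LinearIndependent.pair_iff.2 hli)
        rw [Matrix.range_cons, Matrix.range_cons, Matrix.range_empty, Set.union_empty, Set.singleton_union,
          Fintype.card_fin] at this
        exact this
    have hmem : ∀ x : V, x ∈ Ke s ε ↔ ∃ a b : F, x = a • u + b • u' := by
      intro x
      rw [← hspan, Submodule.mem_span_pair]
      exact ⟨fun ⟨a, b, h⟩ => ⟨a, b, h.symm⟩, fun ⟨a, b, h⟩ => ⟨a, b, h.symm⟩⟩
    refine ⟨u, u', ⟨hQu, hQu', hne, ⟨ε, mem_Ke.1 hu⟩, ⟨ε, mem_Ke.1 hu'⟩, ?_⟩, hspan⟩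
    intro c hc hcs m hm hcm
    constructor
    · apply odd_swap hc hQu hQu' hne _ hm hcm
      intro x hx
      exact (hmem _).1 (hR.can c hc hcs x ((hmem x).2 hx))
    · apply odd_swap hc hQu' hQu (by rw [polar_comm]; exact hne) _ hm hcm
      rintro x ⟨a, b, hx⟩
      obtain ⟨a', b', h3⟩ := (hmem _).1 (hR.can c hc hcs x ((hmem x).2 ⟨b, a, by rw [hx, add_comm]⟩))
      exact ⟨b', a', by rw [h3, add_comm]⟩
  · left
    push Not at hs
    refine ⟨h2, hs, 2 * ε, fun v hv => ?_⟩
    rw [mem_Ke] at hv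
    rw [hv, map_smul, hv, smul_smul, hε, one_smul, smul_smul, mul_assoc, hε, mul_one, two_smul]

/-- adding an eigenspace of dimension `0` or `2` -/
theorem add_Ke (h : Sn Q s n) (hε : ε * ε = 1) (hle : Ke s ε ≤ R) (hd : finrank F (Ke s ε) = 0 ∨ finrank F (Ke s ε) = 2)
    (hO : Out Q s (pp Q (Ke s ε) ⊓ R)) : G1' Q s ∨ Out Q s R := by
  rcases hd with hd | hd
  · right
    have h0 : pp Q (Ke s ε) = ⊤ := by
      rw [eq_top_iff]
      intro v _ w hw
      rw [Submodule.finrank_eq_zero.1 hd] at hw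
      rw [(Submodule.mem_bot F).1 hw, polar_zero_left]
    rwa [h0, top_inf_eq] at hO
  · rcases Ke_two h hε hd with hP | ⟨u, u', hP, hsp⟩
    · exact Or.inr (add_PA (Ke_rn h hε) hP hle hO)
    · have hu : u ∈ Ke s ε := by rw [← hsp]; exact Submodule.subset_span (Set.mem_insert _ _)
      have hu' : u' ∈ Ke s ε := by rw [← hsp]; exact Submodule.subset_span (Set.mem_insert_of_mem _ rfl)
      refine add_PH (hle hu) (hle hu') ?_ hP ?_
      · rw [hsp]; exact Ke_rn h hε
      · rw [hsp]; exact hO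

theorem Out_even (h : Out Q s R) : Even (finrank F R) := by
  obtain ⟨k, hk, -⟩ := h
  exact ⟨k, by omega⟩

/-- **the alternatives for one isometry** -/
theorem alt_one [CharP F p] (h : Sn Q s n) (hp : Np Q s p) (hV : finrank F V = 8) (hsg : HasSign (⇑Q) 4 1)
    (hev : Even (finrank F (Ke s (1 : F)))) :
    G1' Q s ∨ G2' Q s ∨ ∃ P : Fin 4 → Submodule F V, (∀ i, Rn Q s (P i)) ∧ (∀ i, PA Q s (P i)) ∧
      ∀ i j, i ≠ j → ∀ v ∈ P i, ∀ w ∈ P j, polar Q v w = 0 := by
  -- it is enough to have `Out ⊤`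
  suffices hT : G1' Q s ∨ G2' Q s ∨ Out Q s ⊤ by
    rcases hT with h1 | h1 | ⟨k, hk, h1⟩
    · exact Or.inl h1
    · exact Or.inr (Or.inl h1)
    · right; right
      rw [finrank_top, hV] at hk
      obtain rfl : k = 4 := by omega
      rcases h1 with ⟨⟨P, -, h2, h3, h4⟩, -⟩ | ⟨-, h2⟩
      · exact ⟨P, h2, h3, h4⟩
      · exfalso
        have h3 : HasSign (⇑Q) 4 (-(-1) ^ 4) := h2.congr (Submodule.topEquiv (R := F) (M := V)).toEquiv fun v => rfl
        have h4 := (hsg.unique h3 (Or.inl rfl) (Or.inr (by norm_num))).2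
        norm_num at h4
  have e1 : (1 : F) * 1 = 1 := one_mul 1
  have e2 : (-1 : F) * -1 = 1 := by ring
  have hK1 := Ke_rn (Q := Q) h e1
  have hK2 := Ke_rn (Q := Q) h e2
  have d1 := Ke_le h hp e1
  have d2 := Ke_le h hp e2
  have hd1 : finrank F (Ke s (1 : F)) = 0 ∨ finrank F (Ke s (1 : F)) = 2 := by
    obtain ⟨a, ha⟩ := hev
    omega
  have hR1 : Rn Q s (pp Q (Ke s (1 : F)) ⊓ ⊤) := hK1.perp (rn_top h.nd) le_top
  have f1 := finrank_sum hK1.nd (R := ⊤) le_top
  rw [finrank_top, hV] at f1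
  have hno1 : ∀ v ∈ pp Q (Ke s (1 : F)), s v = v → v = 0 := by
    intro v hv hsv
    have hv' : v ∈ Ke s (1 : F) := mem_Ke.2 (by rw [one_smul]; exact hsv)
    exact hK1.nd v hv' fun w hw => by rw [polar_comm]; exact hv w hw
  have hno2 : ∀ v ∈ pp Q (Ke s (-1 : F)), s v = -v → v = 0 := by
    intro v hv hsv
    have hv' : v ∈ Ke s (-1 : F) := mem_Ke.2 (by rw [neg_smul, one_smul]; exact hsv)
    exact hK2.nd v hv' fun w hw => by rw [polar_comm]; exact hv w hw
  by_cases h2 : (2 : F) = 0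
  · have hneg : ∀ v : V, -v = v := fun v => by
      have : v + v = (2 : F) • v := by rw [two_smul]
      rw [h2, zero_smul] at this
      exact neg_eq_of_add_eq_zero_left this
    rcases rec h hp hV hsg _ (pp Q (Ke s (1 : F)) ⊓ ⊤) rfl hR1 (fun v hv => hno1 v hv.1)
      (fun v hv hsv => hno1 v hv.1 (by rw [hsv, hneg])) with h3 | h3 | h3
    · exact Or.inl h3
    · exact Or.inr (Or.inl h3)
    · rcases add_Ke h e1 le_top hd1 h3 with h4 | h4
      · exact Or.inl h4
      · exact Or.inr (Or.inr h4)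
  · have hle : Ke s (-1 : F) ≤ pp Q (Ke s (1 : F)) ⊓ ⊤ := by
      intro w hw
      refine ⟨fun v hv => ?_, trivial⟩
      rw [mem_Ke] at hw hv
      have h3 := polar_map h.mem v w
      rw [hw, hv, one_smul, neg_smul, one_smul, polar_neg_right] at h3
      have h4 : (2 : F) * polar Q v w = 0 := by linear_combination (-1 : F) * h3
      exact (mul_eq_zero.1 h4).resolve_left h2
    have hR0 := hK2.perp hR1 hle
    have f2 := finrank_sum hK2.nd hle
    rcases rec h hp hV hsg _ (pp Q (Ke s (-1 : F)) ⊓ (pp Q (Ke s (1 : F)) ⊓ ⊤)) rfl hR0 (fun v hv => hno1 v hv.2.1)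
      (fun v hv => hno2 v hv.1) with h3 | h3 | h3
    · exact Or.inl h3
    · exact Or.inr (Or.inl h3)
    · obtain ⟨b, hb⟩ := Out_even h3
      rcases add_Ke h e2 hle (by omega) h3 with h4 | h4
      · exact Or.inl h4
      · rcases add_Ke h e1 le_top hd1 h4 with h5 | h5
        · exact Or.inl h5
        · exact Or.inr (Or.inr h5)

end Cfsg.Agent.H520.RC
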