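import Mathlib

/-!
# S3510, triality type iii, box G: polynomials (helper520)

* `exists_frob` : elements of `F[T]`, `T ^ n = 1`, satisfy `y ^ N = y`;
* `exists_h` : elements of prime order of `F[X] / (f)`;
* `galois` : a root `θ` of `f` with `f (θ⁻¹) = 0`, `θ ≠ θ⁻¹`.
-/

set_option autoImplicit false
set_option linter.unusedSectionVars false

namespace Cfsg.Agent.H520.RC

open Polynomial Module

section frob

variable {F : Type*} [Field F] [Finite F]

theorem coprime_card {n : ℕ} (hn : (n : F) ≠ 0) : Nat.Coprime (Nat.card F) n := by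
  have := Fintype.ofFinite F
  obtain ⟨p, hp⟩ := CharP.exists F
  obtain ⟨k, hpp, hk⟩ := FiniteField.card F p
  rw [Nat.card_eq_fintype_card, hk]
  apply Nat.Coprime.pow_left
  rw [Nat.Prime.coprime_iff_not_dvd hpp]
  intro h
  exact hn ((CharP.cast_eq_zero_iff F p n).2 h)

theorem pow_card_iter {A : Type*} [Ring A] [Algebra F A] (T : A) (f : F[X]) (m : ℕ) :
    aeval T f ^ (Nat.card F ^ m) = aeval (T ^ (Nat.card F ^ m)) f := by
  have := Fintype.ofFinite F
  have h1 : ∀ (T : A), aeval T f ^ Nat.card F = aeval (T ^ Nat.card F) f := by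
    intro T
    rw [← map_pow, Nat.card_eq_fintype_card, ← FiniteField.expand_card, expand_aeval]
  induction m generalizing T with
  | zero => rw [pow_zero, pow_one, pow_one]
  | succ m ih => rw [pow_succ, pow_mul, ih, h1, ← pow_mul]

/-- elements of `F[T]`, `T ^ n = 1`, satisfy `y ^ N = y` -/
theorem exists_frob {A : Type*} [Ring A] [Algebra F A] {T : A} {n : ℕ} (hT : T ^ n = 1) (hn : (n : F) ≠ 0) :
    ∃ N : ℕ, 2 ≤ N ∧ ∀ f : F[X], aeval T f ^ N = aeval T f := by
  have h1 := Nat.ModEq.pow_totient (coprime_card hn)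
  have hn0 : 0 < n := Nat.pos_of_ne_zero (fun h => hn (by rw [h, Nat.cast_zero]))
  have hφ : 0 < n.totient := Nat.totient_pos.2 hn0
  have hq : 1 < Nat.card F := Finite.one_lt_card
  have h2 : 1 < Nat.card F ^ n.totient := Nat.one_lt_pow (by omega) hq
  refine ⟨Nat.card F ^ n.totient, h2, fun f => ?_⟩
  rw [pow_card_iter]
  suffices h : T ^ (Nat.card F ^ n.totient) = T by rw [h]
  rw [← Nat.div_add_mod (Nat.card F ^ n.totient) n, pow_add, pow_mul, hT, one_pow, one_mul]
  have h3 : Nat.card F ^ n.totient % n = 1 % n := h1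
  rw [h3]
  rcases Nat.lt_or_ge 1 n with h4 | h4
  · rw [Nat.mod_eq_of_lt h4, pow_one]
  · have h5 : n = 1 := by omega
    subst h5
    rw [Nat.mod_self, pow_zero]
    rw [pow_one] at hT
    exact hT.symm

end frob

section field

variable {F : Type*} [Field F] [Finite F]

theorem card_adj {f : F[X]} (hf : f ≠ 0) : Nat.card (AdjoinRoot f) = Nat.card F ^ f.natDegree := by
  have h1 := (AdjoinRoot.powerBasis hf).finrank
  rw [AdjoinRoot.powerBasis_dim] at h1
  have : Module.Finite F (AdjoinRoot f) := (AdjoinRoot.powerBasis hf).finite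
  rw [Module.natCard_eq_pow_finrank (K := F), h1]

/-- elements of prime order -/
theorem exists_h {f : F[X]} (hf : Irreducible f) {l : ℕ} (hl : l.Prime) (h : l ∣ Nat.card F ^ f.natDegree - 1) :
    ∃ h : F[X], f ∣ h ^ l - 1 ∧ ¬ f ∣ h - 1 := by
  have : Fact (Irreducible f) := ⟨hf⟩
  have : Fact l.Prime := ⟨hl⟩
  have hc := card_adj hf.ne_zero
  have hfin : Finite (AdjoinRoot f) := Nat.finite_of_card_ne_zero (by
    rw [hc]
    exact pow_ne_zero _ Nat.card_pos.ne')
  have := Fintype.ofFinite (AdjoinRoot f)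
  have h1 : l ∣ Nat.card (AdjoinRoot f)ˣ := by
    rw [Nat.card_units, hc]
    exact h
  obtain ⟨y, hy⟩ := exists_prime_orderOf_dvd_card' l h1
  obtain ⟨h, hh⟩ := AdjoinRoot.mk_surjective (y : AdjoinRoot f)
  refine ⟨h, ?_, ?_⟩
  · rw [← AdjoinRoot.mk_eq_zero, map_sub, map_pow, map_one, hh, ← Units.val_pow_eq_pow_val, ← hy,
      pow_orderOf_eq_one, Units.val_one, sub_self]
  · rw [← AdjoinRoot.mk_eq_zero, map_sub, map_one, hh]
    intro h0
    have h2 : y = 1 := Units.ext (sub_eq_zero.1 h0)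
    rw [h2, orderOf_one] at hy
    exact hl.one_lt.ne hy

/-- the automorphism `θ ↦ θ⁻¹` of `F[X] / (f)` -/
theorem galois {f g : F[X]} (hf : Irreducible f) (hg : f ∣ X * g - 1) (hfg : f ∣ f.comp g) (h2 : ¬ f ∣ X ^ 2 - 1) :
    ∃ k : ℕ, f.natDegree = 2 * k ∧ ∀ h : F[X], f ∣ h.comp g - h ^ (Nat.card F ^ k) := by
  have : Fact (Irreducible f) := ⟨hf⟩
  have hc := card_adj hf.ne_zero
  have hfin : Finite (AdjoinRoot f) := Nat.finite_of_card_ne_zero (by
    rw [hc]
    exact pow_ne_zero _ Nat.card_pos.ne')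
  have := Fintype.ofFinite F
  have hfd : FiniteDimensional F (AdjoinRoot f) := Module.Finite.of_finite
  have hrank : Module.finrank F (AdjoinRoot f) = f.natDegree := by
    rw [(AdjoinRoot.powerBasis hf.ne_zero).finrank, AdjoinRoot.powerBasis_dim]
  set θ : AdjoinRoot f := AdjoinRoot.root f with hθ
  set θ' : AdjoinRoot f := AdjoinRoot.mk f g with hθ'
  have e1 : θ * θ' = 1 := by
    have h3 := AdjoinRoot.mk_eq_zero.2 hg
    rw [map_sub, map_mul, AdjoinRoot.mk_X, map_one, sub_eq_zero] at h3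
    exact h3
  have e2 : aeval θ' f = 0 := by
    have h3 := AdjoinRoot.mk_eq_zero.2 hfg
    rw [← AdjoinRoot.aeval_eq, aeval_comp] at h3
    rwa [AdjoinRoot.aeval_eq] at h3
  let σ : AdjoinRoot f →ₐ[F] AdjoinRoot f := AdjoinRoot.liftAlgHom f (Algebra.ofId F _) θ' e2
  have hσθ : σ θ = θ' := AdjoinRoot.liftAlgHom_root _ _ _ _
  have hσθ' : σ θ' = θ := by
    have h3 : σ θ * σ θ' = 1 := by rw [← map_mul, e1, map_one]
    rw [hσθ] at h3
    calc σ θ' = θ * θ' * σ θ' := by rw [e1, one_mul]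
      _ = θ * (θ' * σ θ') := by rw [mul_assoc]
      _ = θ := by rw [h3, mul_one]
  have hσσ : σ ^ 2 = 1 := by
    apply AdjoinRoot.algHom_ext
    rw [pow_two]
    show σ (σ θ) = θ
    rw [hσθ, hσθ']
  have hσ1 : σ ≠ 1 := by
    intro h3
    apply h2
    rw [← AdjoinRoot.mk_eq_zero, map_sub, map_pow, AdjoinRoot.mk_X, map_one]
    have h4 : θ' = θ := by
      rw [← hσθ, h3]
      rfl
    rw [h4] at e1
    rw [pow_two]
    exact sub_eq_zero.2 e1
  obtain ⟨j, hj⟩ := (FiniteField.bijective_frobeniusAlgHom_pow F (AdjoinRoot f)).2 σ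
  have hj' : FiniteField.frobeniusAlgHom F (AdjoinRoot f) ^ (j : ℕ) = σ := hj
  have hord := FiniteField.orderOf_frobeniusAlgHom F (AdjoinRoot f)
  have hjlt := j.2
  have h5 : Module.finrank F (AdjoinRoot f) ∣ j * 2 := by
    have h6 : orderOf (FiniteField.frobeniusAlgHom F (AdjoinRoot f)) ∣ j * 2 := by
      apply orderOf_dvd_of_pow_eq_one
      rw [pow_mul, hj', hσσ]
    rwa [hord] at h6
  have hj0 : (j : ℕ) ≠ 0 := by
    intro h6
    rw [h6, pow_zero] at hj'
    exact hσ1 hj'.symm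
  obtain ⟨c, hc'⟩ := h5
  have h7 : c = 1 := by
    rcases Nat.lt_or_ge c 2 with h8 | h8
    · rcases Nat.lt_or_ge 0 c with h9 | h9
      · omega
      · have : c = 0 := by omega
        subst this
        omega
    · have := Nat.mul_le_mul_left (Module.finrank F (AdjoinRoot f)) h8
      omega
  rw [h7, mul_one] at hc'
  refine ⟨j, by omega, fun h => ?_⟩
  have h8 : ∀ (m : ℕ) (y : AdjoinRoot f), (FiniteField.frobeniusAlgHom F (AdjoinRoot f) ^ m) y = y ^ (Nat.card F ^ m) := by
    intro m y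
    induction m generalizing y with
    | zero => simp
    | succ m ih =>
      rw [pow_succ]
      show (FiniteField.frobeniusAlgHom F (AdjoinRoot f) ^ m) (FiniteField.frobeniusAlgHom F (AdjoinRoot f) y) = _
      rw [ih, FiniteField.coe_frobeniusAlgHom, Nat.card_eq_fintype_card, ← pow_mul]
      congr 1
      ring
  rw [← AdjoinRoot.mk_eq_zero, map_sub, sub_eq_zero, map_pow, ← h8, hj', ← AdjoinRoot.aeval_eq, aeval_comp,
    AdjoinRoot.aeval_eq, ← AdjoinRoot.aeval_eq (f := f) h, ← hθ', ← hσθ, aeval_algHom_apply]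

end field

end Cfsg.Agent.H520.RC
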