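import Cfsg.Agent.H520.RC.BoxGRec

/-!
# S3510, triality type iii, box G: the blocks (helper520)
-/

set_option autoImplicit false
set_option linter.unusedSectionVars false

namespace Cfsg.Agent.H520.RC

open Polynomial Module QuadraticMap
open Cfsg.Agent.LieClassical.OrthCore Cfsg.Agent.LieClassical.OrthTrans

variable {F V : Type*} [Field F] [Finite F] [AddCommGroup V] [Module F V] [FiniteDimensional F V]
  {Q : QuadraticForm F V} {s : V ≃ₗ[F] V} {n p : ℕ} {R : Submodule F V}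

theorem rn_top (h : Nondeg Q) : Rn Q s ⊤ := ⟨fun v _ hv => h v fun y => hv y trivial, fun _ _ _ _ _ => trivial⟩

theorem exists_smul {K : Submodule F V} (hK : finrank F K ≤ 1) {w x : V} (hw : w ∈ K) (hw0 : w ≠ 0) (hx : x ∈ K) :
    ∃ a : F, x = a • w := by
  have h1 : finrank F K = 1 := by
    apply le_antisymm hK
    rw [Nat.one_le_iff_ne_zero]
    intro h0
    rw [Submodule.finrank_eq_zero.1 h0] at hw
    exact hw0 ((Submodule.mem_bot F).1 hw)
  obtain ⟨a, ha⟩ := exists_smul_eq_of_finrank_eq_one h1 (x := (⟨w, hw⟩ : K)) (fun h => hw0 (congrArg Subtype.val h))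
    ⟨x, hx⟩
  exact ⟨a, (congrArg Subtype.val ha).symm⟩

theorem rn_span {u u' : V} (hu : Q u = 0) (hu' : Q u' = 0) (hne : polar Q u u' ≠ 0)
    (hcan : ∀ c ∈ O Q, c * s = s * c → c u ∈ Submodule.span F {u, u'} ∧ c u' ∈ Submodule.span F {u, u'}) :
    Rn Q s (Submodule.span F {u, u'}) := by
  constructor
  · intro v hv hvv
    obtain ⟨a, b, rfl⟩ := Submodule.mem_span_pair.1 hv
    have h1 := hvv u (Submodule.subset_span (Set.mem_insert _ _))
    have h2 := hvv u' (Submodule.subset_span (Set.mem_insert_of_mem _ rfl))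
    rw [polar_add_left, polar_smul_left, polar_smul_left, polar_self_of_sing hu, smul_zero, zero_add, smul_eq_mul,
      polar_comm] at h1
    rw [polar_add_left, polar_smul_left, polar_smul_left, polar_self_of_sing hu', smul_zero, add_zero, smul_eq_mul] at h2
    rw [(mul_eq_zero.1 h1).resolve_right hne, (mul_eq_zero.1 h2).resolve_right hne, zero_smul, zero_smul, add_zero]
  · intro c hc hcs v hv
    obtain ⟨a, b, rfl⟩ := Submodule.mem_span_pair.1 hv
    rw [map_add, map_smul, map_smul]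
    exact Submodule.add_mem _ (Submodule.smul_mem _ _ (hcan c hc hcs).1) (Submodule.smul_mem _ _ (hcan c hc hcs).2)

theorem block [Finite V] [CharP F p] (h : Sn Q s n) (hR : Rn Q s R) (hp : Np Q s p)
    (h1 : ∀ v ∈ R, s v = v → v = 0) (h1' : ∀ v ∈ R, s v = -v → v = 0) (hV : finrank F V = 8)
    (hsg : Cfsg.Agent.H182.Sign.HasSign (⇑Q) 4 1) (hR0 : R ≠ ⊥) :
    G1' Q s ∨ G2' Q s ∨ (∃ B ≤ R, Rn Q s B ∧ PA Q s B) ∨
      ∃ u ∈ R, ∃ u' ∈ R, PH Q s u u' ∧ Rn Q s (Submodule.span F {u, u'}) := by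
  have hsR : ∀ v ∈ R, s v ∈ R := fun v hv => hR.s_mem h.mem hv
  have hsR' : ∀ v ∈ R, s⁻¹ v ∈ R := fun v hv => hR.sinv_mem h.mem hv
  have hq : 1 < Nat.card F := Finite.one_lt_card
  obtain ⟨v, hv, hv0⟩ := Submodule.exists_mem_ne_zero_of_ne_bot hR0
  have hX : (X ^ n - 1 : F[X]) ≠ 0 := by
    rw [← C_1]
    exact X_pow_sub_C_ne_zero h.pos 1
  obtain ⟨f, hm, hf, w, hw, hw0, hfw⟩ := exists_irr hX hsR hv hv0 (by
      rw [ev_sub, ev_X_pow, ev_one, h.pow]
      exact sub_self v)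
  have hdpos : 0 < f.natDegree := hf.natDegree_pos
  by_cases hN : f ∣ til n f
  · have h2 : ¬ f ∣ X ^ 2 - 1 := by
      intro h3
      have h4 := ev_dvd h3 hfw
      rw [ev_sub, ev_X_pow, ev_one, pow_two] at h4
      have h5 : s (s w) = w := sub_eq_zero.1 h4
      have k6 : s w + w = 0 := h1 _ (R.add_mem (hsR w hw) hw) (by rw [map_add, h5, add_comm])
      exact hw0 (h1' w hw (eq_neg_of_add_eq_zero_left k6))
    obtain ⟨k, hk, hc⟩ := case_N h hf hN h2 hfw hw0
    have hle : f.natDegree ≤ 8 := by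
      have := natDegree_le (R := ⊤) (fun _ _ => trivial) hf trivial hfw hw0 (K := ⊤) (fun _ _ _ => trivial)
      rwa [finrank_top, hV] at this
    have hc' : ∀ l : ℕ, l.Prime → l ∣ Nat.card F ^ k + 1 → ∃ c ∈ O Q, c ^ l = 1 ∧ c ≠ 1 ∧ c * s = s * c := by
      intro l hl hd
      obtain ⟨c, hcO, hcs, hcl, hfix⟩ := hc l hl hd
      refine ⟨c, hcO, hcl, fun hc1 => hw0 (hfix w hfw ?_), hcs⟩
      rw [hc1]
      rfl
    have hk4 : k ≤ 4 := by omega
    have hcases : k = 0 ∨ k = 1 ∨ k = 2 ∨ k = 3 ∨ k = 4 := by omega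
    rcases hcases with rfl | rfl | rfl | rfl | rfl
    · omega
    · obtain ⟨a, b⟩ := N_two h hR hp h1 h1' hm hf hN hk hw hfw hw0
      exact Or.inr (Or.inr (Or.inl ⟨_, inf_le_right, a, b⟩))
    · exact Or.inr (Or.inl ⟨_, Or.inr (Or.inr rfl), fun l hl _ hd => hc' l hl hd⟩)
    · refine Or.inr (Or.inl ⟨_, Or.inr (Or.inl rfl), fun l hl _ hd => hc' l hl (hd.trans ?_)⟩)
      have e : Nat.card F ^ 3 + 1 = (Nat.card F ^ 2 - Nat.card F + 1) * (Nat.card F + 1) := by
        have h3 : Nat.card F ≤ Nat.card F ^ 2 := Nat.le_self_pow two_ne_zero _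
        zify [h3]
        ring
      rw [e]
      exact dvd_mul_right _ _
    · exfalso
      obtain ⟨l, hl, hl2, hd⟩ := exists_odd_prime (x := Nat.card F ^ 2) (Nat.one_lt_pow two_ne_zero hq)
      rw [← pow_mul] at hd
      obtain ⟨c, hcO, -, hcl, hfix⟩ := hc l hl hd
      refine no_eight hV hsg hcO hl hl2 hd hcl fun x hx => hfix x ?_ hx
      have h3 : LinearMap.ker (ev s f) = ⊤ := by
        apply Submodule.eq_top_of_finrank_eq
        have h4 := natDegree_le (R := ⊤) (fun _ _ => trivial) hf trivial hfw hw0 (K := LinearMap.ker (ev s f))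
          (fun _ _ h => h)
        have h5 := Submodule.finrank_le (LinearMap.ker (ev s f))
        omega
      have h4 : x ∈ LinearMap.ker (ev s f) := by rw [h3]; trivial
      exact h4
  · obtain ⟨w', hw', hfw', hww'⟩ := pair h hR f hw hfw hw0
    have hw0' : w' ≠ 0 := by
      intro h0
      rw [h0, polar_zero_right] at hww'
      exact hww' rfl
    have hfw2 : ev (s⁻¹)⁻¹ f w = 0 := by rw [inv_inv]; exact hfw
    have hd4 : f.natDegree ≤ 4 := by
      have a1 := natDegree_le (R := ⊤) (fun _ _ => trivial) hf trivial hfw hw0 (K := LinearMap.ker (ev s f))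
        (fun _ _ h => h)
      have a2 := natDegree_le (R := ⊤) (s := s⁻¹) (fun _ _ => trivial) hf trivial hfw' hw0'
        (K := LinearMap.ker (ev s⁻¹ f)) (fun _ _ h => h)
      have a3 : Disjoint (LinearMap.ker (ev s f)) (LinearMap.ker (ev s⁻¹ f)) := by
        rw [Submodule.disjoint_def]
        intro x hx hx'
        exact eq_zero_of_S h hf hN hx hx'
      have a4 := Submodule.finrank_add_finrank_le_of_disjoint a3
      omega
    have hcases : f.natDegree = 1 ∨ f.natDegree = 2 ∨ f.natDegree = 3 ∨ f.natDegree = 4 := by omega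
    rcases hcases with hd | hd | hd | hd
    · have k1 := S_one (R := R) h hp hm hf hN hd hfw' hw0'
      have k2 := S_one (R := R) h.inv hp.inv hm hf hN hd hfw2 hw0
      have hcan : ∀ c ∈ O Q, c * s = s * c → (∃ a : F, c w = a • w) ∧ ∃ a : F, c w' = a • w' := by
        intro c hc hcs
        have a1 := hR.comm hc hcs hw hfw
        have a2 := hR.inv.comm hc (comm_inv hcs) hw' hfw'
        exact ⟨exists_smul k1 (mem_kr.2 ⟨hfw, hw⟩) hw0 (mem_kr.2 ⟨a1.2, a1.1⟩),
          exists_smul k2 (mem_kr.2 ⟨hfw', hw'⟩) hw0' (mem_kr.2 ⟨a2.2, a2.1⟩)⟩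
      refine Or.inr (Or.inr (Or.inr ⟨w, hw, w', hw', ⟨ts_Q h hf hN hfw, ts_Q h.inv hf hN hfw', hww', ?_, ?_, ?_⟩, ?_⟩))
      · exact (hcan s h.mem rfl).1
      · exact (hcan s h.mem rfl).2
      · exact fun c hc hcs m _ _ => hcan c hc hcs
      · apply rn_span (ts_Q h hf hN hfw) (ts_Q h.inv hf hN hfw') hww'
        intro c hc hcs
        obtain ⟨⟨a, ha⟩, ⟨b, hb⟩⟩ := hcan c hc hcs
        rw [ha, hb]
        exact ⟨Submodule.smul_mem _ _ (Submodule.subset_span (Set.mem_insert _ _)),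
          Submodule.smul_mem _ _ (Submodule.subset_span (Set.mem_insert_of_mem _ rfl))⟩
    · left
      have k1 := S_two (R := R) h hp hm hf hN hd hfw' hw0'
      have k2 := S_two (R := R) h.inv hp.inv hm hf hN hd hfw2 hw0
      have a1 := natDegree_le hsR hf hw hfw hw0 (K := kr s f R) (fun x hx hfx => mem_kr.2 ⟨hfx, hx⟩)
      have a2 := natDegree_le (s := s⁻¹) hsR' hf hw' hfw' hw0' (K := kr s⁻¹ f R) (fun x hx hfx => mem_kr.2 ⟨hfx, hx⟩)
      refine ⟨kr s f R, kr s⁻¹ f R, by omega, by omega, fun x hx => ts_Q h hf hN (mem_kr.1 hx).1,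
        fun x hx => ts_Q h.inv hf hN (mem_kr.1 hx).1, ?_, ?_, ?_, ?_⟩
      · intro x hx hxx
        by_contra hx0
        obtain ⟨y, hy, hy1, hy2⟩ := pair h hR f (mem_kr.1 hx).2 (mem_kr.1 hx).1 hx0
        exact hy2 (hxx y (mem_kr.2 ⟨hy1, hy⟩))
      · intro x hx
        have a3 := hR.comm h.mem rfl (mem_kr.1 hx).2 (mem_kr.1 hx).1
        exact mem_kr.2 ⟨a3.2, a3.1⟩
      · intro x hx
        have a3 := hR.inv.comm h.mem (comm_inv rfl) (mem_kr.1 hx).2 (mem_kr.1 hx).1
        exact mem_kr.2 ⟨a3.2, a3.1⟩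
      · intro c hc hcs _ _ _ x hx
        have a3 := hR.comm hc hcs (mem_kr.1 hx).2 (mem_kr.1 hx).1
        exact mem_kr.2 ⟨a3.2, a3.1⟩
    · refine Or.inr (Or.inl ⟨_, Or.inl rfl, fun l hl _ hdl => ?_⟩)
      obtain ⟨c, hc, hcs, hcl, hc1⟩ := case_S h hf hN hfw hw0 hl (by
        rw [hd]
        refine hdl.trans ?_
        have e : Nat.card F ^ 3 - 1 = (Nat.card F ^ 2 + Nat.card F + 1) * (Nat.card F - 1) := by
          have h3 : 1 ≤ Nat.card F ^ 3 := Nat.one_le_pow _ _ (by omega)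
          zify [h3, hq.le]
          ring
        rw [e]
        exact dvd_mul_right _ _)
      exact ⟨c, hc, hcl, hc1, hcs⟩
    · refine Or.inr (Or.inl ⟨_, Or.inr (Or.inr rfl), fun l hl _ hdl => ?_⟩)
      obtain ⟨c, hc, hcs, hcl, hc1⟩ := case_S h hf hN hfw hw0 hl (by
        rw [hd]
        refine hdl.trans ?_
        have e : Nat.card F ^ 4 - 1 = (Nat.card F ^ 2 + 1) * (Nat.card F ^ 2 - 1) := by
          have h3 : 1 ≤ Nat.card F ^ 4 := Nat.one_le_pow _ _ (by omega)
          have h4 : 1 ≤ Nat.card F ^ 2 := Nat.one_le_pow _ _ (by omega)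
          zify [h3, h4]
          ring
        rw [e]
        exact dvd_mul_right _ _)
      exact ⟨c, hc, hcl, hc1, hcs⟩

end Cfsg.Agent.H520.RC
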