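import Cfsg.Agent.H520.RC.BoxGBlk

/-!
# S3510, triality type iii, box G: elements of prime order commuting with a semisimple isometry (helper520)
-/

set_option autoImplicit false
set_option linter.unusedSectionVars false

namespace Cfsg.Agent.H520.RC

open Polynomial Module QuadraticMap
open Cfsg.Agent.LieClassical.OrthCore Cfsg.Agent.LieClassical.OrthTrans

variable {F V : Type*} [Field F] [Finite F] [AddCommGroup V] [Module F V] [FiniteDimensional F V]
  {Q : QuadraticForm F V} {s : V ≃ₗ[F] V} {n : ℕ} {R : Submodule F V}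

/-- from a map on a nondegenerate subspace to an isometry commuting with `s` -/
theorem exists_comm (h : Sn Q s n) {B : Submodule F V} (hB : ∀ v ∈ B, (∀ w ∈ B, polar Q v w = 0) → v = 0)
    (hsB : ∀ v ∈ B, s v ∈ B) {C : V →ₗ[F] V} (hC : ∀ v ∈ B, C v ∈ B) (hCQ : ∀ v ∈ B, Q (C v) = Q v)
    (hCs : ∀ v ∈ B, C (s v) = s (C v)) {l : ℕ} (hCl : ∀ v ∈ B, (C ^ l) v = v) :
    ∃ c ∈ O Q, c * s = s * c ∧ c ^ l = 1 ∧ ∀ v ∈ B, c v = C v := by
  obtain ⟨c, hc, h1, h2⟩ := exists_ext h.nd hB C hC hCQ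
  refine ⟨c, hc, ?_, ?_, h1⟩
  · apply eq_of_split hB
    · intro v hv
      show c (s v) = s (c v)
      rw [h1 _ (hsB v hv), h1 v hv, hCs v hv]
    · intro v hv
      show c (s v) = s (c v)
      rw [h2 v hv, h2 _ (pp_inv h.mem hsB v hv)]
  · have e1 : ∀ m : ℕ, ∀ v ∈ B, (C ^ m) v ∈ B ∧ (c ^ m) v = (C ^ m) v := by
      intro m
      induction m with
      | zero => intro v hv; exact ⟨hv, rfl⟩
      | succ m ih =>
        intro v hv
        obtain ⟨i1, i2⟩ := ih v hv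
        rw [pow_succ', pow_succ']
        exact ⟨hC _ i1, by
          show c ((c ^ m) v) = C ((C ^ m) v)
          rw [i2, h1 _ i1]⟩
    have e2 : ∀ m : ℕ, ∀ v ∈ pp Q B, (c ^ m) v = v := by
      intro m
      induction m with
      | zero => intro v hv; rfl
      | succ m ih =>
        intro v hv
        rw [pow_succ]
        show (c ^ m) (c v) = v
        rw [h2 v hv, ih v hv]
    apply eq_of_split hB
    · intro v hv
      rw [(e1 l v hv).2, hCl v hv]
      rfl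
    · intro v hv
      rw [e2 l v hv]
      rfl

/-- self-dual case -/
theorem case_N (h : Sn Q s n) {f : F[X]} (hf : Irreducible f) (hN : f ∣ til n f) (h2 : ¬ f ∣ X ^ 2 - 1) {v : V}
    (hv : ev s f v = 0) (hv0 : v ≠ 0) :
    ∃ k : ℕ, f.natDegree = 2 * k ∧ ∀ l : ℕ, l.Prime → l ∣ Nat.card F ^ k + 1 →
      ∃ c ∈ O Q, c * s = s * c ∧ c ^ l = 1 ∧ ∀ w, ev s f w = 0 → c w = w → w = 0 := by
  have hX : ev s (X * X ^ (n - 1) - 1) v = 0 := by
    rw [ev_sub, ev_mul, ev_X, ev_X_pow, ev_one]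
    have : s ((s ^ (n - 1)) v) = (s ^ (n - 1 + 1)) v := by rw [pow_succ']; rfl
    rw [this, Nat.sub_add_cancel h.pos, h.pow]
    exact sub_self v
  obtain ⟨k, hk, hg⟩ := galois hf (dvd_of_ev hf hv hv0 hX) hN h2
  refine ⟨k, hk, fun l hl hlk => ?_⟩
  have hl2 : l ∣ Nat.card F ^ f.natDegree - 1 := by
    rw [hk, mul_comm, pow_mul]
    refine hlk.trans ?_
    have := Nat.sub_dvd_pow_sub_pow (Nat.card F ^ k) 1 2
    have e : (Nat.card F ^ k) ^ 2 - 1 = (Nat.card F ^ k + 1) * (Nat.card F ^ k - 1) := by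
      have := Nat.sq_sub_sq (Nat.card F ^ k) 1
      simpa using this
    rw [e]
    exact dvd_mul_right _ _
  obtain ⟨g, hg1, hg2⟩ := exists_h hf hl hl2
  have hdual : ∀ w, ev s f w = 0 → ev s⁻¹ g (ev s g w) = w := by
    intro w hw
    have e1 : f ∣ til n g * g - 1 := by
      have e2 : til n g * g - 1 = (til n g - g ^ (Nat.card F ^ k)) * g + (g ^ (Nat.card F ^ k + 1) - 1) := by ring
      rw [e2]
      refine dvd_add ((hg g).mul_right g) (hg1.trans ?_)
      obtain ⟨j, hj⟩ := hlk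
      rw [hj, pow_mul]
      exact sub_one_dvd_pow_sub_one _ j
    have e3 := ev_dvd e1 hw
    rw [ev_sub, ev_mul, ev_one, ev_til h] at e3
    exact sub_eq_zero.1 e3
  have h1 : ¬ f ∣ X - 1 := fun h3 => h2 (h3.trans ⟨X + 1, by ring⟩)
  have hsB : ∀ w ∈ LinearMap.ker (ev s f), s w ∈ LinearMap.ker (ev s f) := by
    intro w hw
    rw [LinearMap.mem_ker] at hw ⊢
    have h3 := ev_comm s (s : V →ₗ[F] V) (fun _ => rfl) f w
    have h4 : s (ev s f w) = ev s f (s w) := h3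
    rw [← h4, hw, map_zero]
  have hgB : ∀ w ∈ LinearMap.ker (ev s f), ev s g w ∈ LinearMap.ker (ev s f) := by
    intro w hw
    rw [LinearMap.mem_ker] at hw ⊢
    rw [← ev_mul, mul_comm, ev_mul, hw, map_zero]
  have hpol : ∀ w w', ev s f w = 0 → polar Q (ev s g w') (ev s g w) = polar Q w' w := by
    intro w w' hw
    rw [adj h.mem, hdual w hw]
  have key : ∃ c ∈ O Q, c * s = s * c ∧ c ^ l = 1 ∧ ∀ v ∈ LinearMap.ker (ev s f), c v = ev s g v := by
    refine exists_comm (l := l) h (B := LinearMap.ker (ev s f)) ?_ hsB (C := ev s g) hgB ?_ ?_ ?_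
    · intro w hw hww
      by_contra hw0
      obtain ⟨w', -, h3, h4⟩ := pair (R := ⊤) h ⟨fun v _ hv => h.nd v fun y => hv y trivial, fun _ _ _ _ _ => trivial⟩ f
        trivial hw hw0
      exact h4 (hww w' ((ker_iff_of_N h hN).2 h3))
    · intro w hw
      obtain ⟨u, -, hu, rfl⟩ := exists_sub (R := ⊤) (fun _ _ => trivial) hf h1 trivial hw
      apply Q_of_polar h.mem
      · intro x
        exact (ev_comm s (s : V →ₗ[F] V) (fun _ => rfl) g x).symm
      · exact hpol _ _ hu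
      · exact hpol _ _ hu
    · intro w _
      exact (ev_comm s (s : V →ₗ[F] V) (fun _ => rfl) g w).symm
    · intro w hw
      rw [ev_end_pow]
      have h3 := ev_dvd hg1 hw
      rw [ev_sub, ev_one] at h3
      exact sub_eq_zero.1 h3
  obtain ⟨c, hc, hcs, hcl, hcB⟩ := key
  · refine ⟨c, hc, hcs, hcl, fun w hw hcw => ?_⟩
    by_contra hw0
    apply hg2
    apply dvd_of_ev hf hw hw0
    rw [ev_sub, ev_one, ← hcB w hw, hcw, sub_self]

/-- split case -/
theorem case_S (h : Sn Q s n) {f : F[X]} (hf : Irreducible f) (hS : ¬ f ∣ til n f) {v : V}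
    (hv : ev s f v = 0) (hv0 : v ≠ 0) {l : ℕ} (hl : l.Prime) (hlk : l ∣ Nat.card F ^ f.natDegree - 1) :
    ∃ c ∈ O Q, c * s = s * c ∧ c ^ l = 1 ∧ c ≠ 1 := by
  obtain ⟨g, hg1, hg2⟩ := exists_h hf hl hlk
  obtain ⟨N, hN, hNf⟩ := h.frob
  obtain ⟨m, rfl⟩ : ∃ m, N = m + 1 + 1 := ⟨N - 2, by omega⟩
  obtain ⟨l', rfl⟩ : ∃ l', l = l' + 1 := ⟨l - 1, by have := hl.pos; omega⟩
  have hcm : ∀ (a : F[X]) (x : V), ev s a (s x) = s (ev s a x) := fun a x =>
    (ev_comm s (s : V →ₗ[F] V) (fun _ => rfl) a x).symm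
  have hss : ∀ x, s⁻¹ (s x) = x := fun x => LinearEquiv.symm_apply_apply s x
  have hss' : ∀ x, s (s⁻¹ x) = x := fun x => LinearEquiv.apply_symm_apply s x
  have hcm' : ∀ (a : F[X]) (x : V), ev s⁻¹ a (s x) = s (ev s⁻¹ a x) := fun a x =>
    (ev_comm s⁻¹ (s : V →ₗ[F] V) (fun y => by
      show s (s⁻¹ y) = s⁻¹ (s y)
      rw [hss, hss']) a x).symm
  have hcc : ∀ (a b : F[X]) (x : V), ev s⁻¹ a (ev s b x) = ev s b (ev s⁻¹ a x) := fun a b x => by
    rw [← ev_til h, ← ev_til h, ← ev_mul, ← ev_mul, mul_comm]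
  -- the projection
  let e : Module.End F V := ev s (1 - f ^ (m + 1))
  have he : ∀ x, e x = x - ev s (f ^ (m + 1)) x := fun x => by
    show ev s (1 - f ^ (m + 1)) x = _
    rw [ev_sub, ev_one]
  have he1 : ∀ x, ev s f x = 0 → e x = x := fun x hx => by
    rw [he, pow_succ, ev_mul, hx, map_zero, sub_zero]
  have he2 : ∀ x, ev s⁻¹ f x = 0 → e x = 0 := fun x hx => by
    apply eq_zero_of_S h hf hS
    · rw [he, map_sub, ← ev_pow_succ, hNf, sub_self]
    · show ev s⁻¹ f (ev s (1 - f ^ (m + 1)) x) = 0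
      rw [hcc, hx, map_zero]
  let C : Module.End F V := (ev s g) ∘ₗ e + (ev s⁻¹ (g ^ l')) ∘ₗ (LinearMap.id - e)
  have hC1 : ∀ x, ev s f x = 0 → C x = ev s g x := fun x hx => by
    show ev s g (e x) + ev s⁻¹ (g ^ l') (x - e x) = _
    rw [he1 x hx, sub_self, map_zero, add_zero]
  have hC2 : ∀ x, ev s⁻¹ f x = 0 → C x = ev s⁻¹ (g ^ l') x := fun x hx => by
    show ev s g (e x) + ev s⁻¹ (g ^ l') (x - e x) = _
    rw [he2 x hx, sub_zero, map_zero, zero_add]
  have hS' : ¬ f ∣ til n f := hS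
  have t1 : ∀ x y, ev s f x = 0 → ev s f y = 0 → polar Q x y = 0 := fun x y hx hy => ts_polar h hf hS hx hy
  have t2 : ∀ x y, ev s⁻¹ f x = 0 → ev s⁻¹ f y = 0 → polar Q x y = 0 := fun x y hx hy =>
    ts_polar h.inv hf hS hx hy
  have q1 : ∀ x, ev s f x = 0 → Q x = 0 := fun x hx => ts_Q h hf hS hx
  have q2 : ∀ x, ev s⁻¹ f x = 0 → Q x = 0 := fun x hx => ts_Q h.inv hf hS hx
  have k1 : ∀ (a : F[X]) x, ev s f x = 0 → ev s f (ev s a x) = 0 := fun a x hx => by
    rw [← ev_mul, mul_comm, ev_mul, hx, map_zero]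
  have k2 : ∀ (a : F[X]) x, ev s⁻¹ f x = 0 → ev s⁻¹ f (ev s⁻¹ a x) = 0 := fun a x hx => by
    rw [← ev_mul, mul_comm, ev_mul, hx, map_zero]
  have hRT : Rn Q s ⊤ := ⟨fun v _ hv => h.nd v fun y => hv y trivial, fun _ _ _ _ _ => trivial⟩
  have hmem : ∀ x ∈ LinearMap.ker (ev s f) ⊔ LinearMap.ker (ev s⁻¹ f), ∃ a b, ev s f a = 0 ∧ ev s⁻¹ f b = 0 ∧
      x = a + b := by
    intro x hx
    obtain ⟨a, ha, b, hb, rfl⟩ := Submodule.mem_sup.1 hx
    exact ⟨a, b, ha, hb, rfl⟩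
  have hin : ∀ a b, ev s f a = 0 → ev s⁻¹ f b = 0 → a + b ∈ LinearMap.ker (ev s f) ⊔ LinearMap.ker (ev s⁻¹ f) :=
    fun a b ha hb => Submodule.add_mem_sup ha hb
  have hg1' : ∀ x, ev s f x = 0 → ev s (g ^ (l' + 1)) x = x := fun x hx => by
    have h3 := ev_dvd hg1 hx
    rw [ev_sub, ev_one] at h3
    exact sub_eq_zero.1 h3
  have hg2' : ∀ x, ev s⁻¹ f x = 0 → ev s⁻¹ (g ^ (l' + 1)) x = x := fun x hx => by
    have h3 := ev_dvd hg1 hx
    rw [ev_sub, ev_one] at h3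
    exact sub_eq_zero.1 h3
  have key : ∃ c ∈ O Q, c * s = s * c ∧ c ^ (l' + 1) = 1 ∧
      ∀ v ∈ LinearMap.ker (ev s f) ⊔ LinearMap.ker (ev s⁻¹ f), c v = C v := by
    refine exists_comm (l := l' + 1) h
      (B := LinearMap.ker (ev s f) ⊔ LinearMap.ker (ev s⁻¹ f)) ?_ ?_ (C := C) ?_ ?_ ?_ ?_
    · intro x hx hxx
      obtain ⟨a, b, ha, hb, rfl⟩ := hmem x hx
      have ha0 : a = 0 := by
        by_contra ha0
        obtain ⟨w, -, h3, h4⟩ := pair h hRT f trivial ha ha0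
        have h5 := hxx w (Submodule.mem_sup_right h3)
        rw [polar_add_left, t2 b w hb h3, add_zero] at h5
        exact h4 h5
      have hb0 : b = 0 := by
        by_contra hb0
        obtain ⟨w, -, h3, h4⟩ := pair h.inv hRT.inv f trivial hb hb0
        rw [inv_inv] at h3
        have h5 := hxx w (Submodule.mem_sup_left h3)
        rw [polar_add_left, t1 a w ha h3, zero_add] at h5
        exact h4 h5
      rw [ha0, hb0, add_zero]
    · intro x hx
      obtain ⟨a, b, ha, hb, rfl⟩ := hmem x hx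
      rw [map_add]
      refine hin _ _ ?_ ?_
      · rw [hcm, ha, map_zero]
      · rw [hcm', hb, map_zero]
    · intro x hx
      obtain ⟨a, b, ha, hb, rfl⟩ := hmem x hx
      rw [map_add, hC1 a ha, hC2 b hb]
      exact hin _ _ (k1 _ _ ha) (k2 _ _ hb)
    · intro x hx
      obtain ⟨a, b, ha, hb, rfl⟩ := hmem x hx
      rw [map_add, hC1 a ha, hC2 b hb, Q_add, Q_add, q1 a ha, q2 b hb, q1 _ (k1 _ _ ha), q2 _ (k2 _ _ hb), adj h.mem,
        ← ev_pow_succ, hg2' b hb]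
    · intro x hx
      obtain ⟨a, b, ha, hb, rfl⟩ := hmem x hx
      rw [map_add, map_add, map_add, hC1 a ha, hC2 b hb, map_add, hC1 _ (by rw [hcm, ha, map_zero]),
        hC2 _ (by rw [hcm', hb, map_zero]), hcm, hcm']
    · intro x hx
      obtain ⟨a, b, ha, hb, rfl⟩ := hmem x hx
      have i1 : ∀ j : ℕ, ∀ a, ev s f a = 0 → (C ^ j) a = ev s (g ^ j) a := by
        intro j
        induction j with
        | zero => intro a _; rw [pow_zero, pow_zero, ev_one]; rfl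
        | succ j ih =>
          intro a ha
          rw [pow_succ, pow_succ, ev_mul]
          show (C ^ j) (C a) = _
          rw [hC1 a ha, ih _ (k1 _ _ ha)]
      have i2 : ∀ j : ℕ, ∀ b, ev s⁻¹ f b = 0 → (C ^ j) b = ev s⁻¹ ((g ^ l') ^ j) b := by
        intro j
        induction j with
        | zero => intro a _; rw [pow_zero, pow_zero, ev_one]; rfl
        | succ j ih =>
          intro a ha
          rw [pow_succ, pow_succ, ev_mul]
          show (C ^ j) (C a) = _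
          rw [hC2 a ha, ih _ (k2 _ _ ha)]
      rw [map_add, i1 _ a ha, i2 _ b hb, hg1' a ha]
      congr 1
      rw [← pow_mul, mul_comm, pow_mul]
      have h4 : f ∣ (g ^ (l' + 1)) ^ l' - 1 := hg1.trans (sub_one_dvd_pow_sub_one _ _)
      have h3 := ev_dvd (s := s⁻¹) h4 hb
      rw [ev_sub, ev_one] at h3
      exact sub_eq_zero.1 h3
  obtain ⟨c, hc, hcs, hcl, hcB⟩ := key
  · refine ⟨c, hc, hcs, hcl, fun hc1 => ?_⟩
    apply hg2
    apply dvd_of_ev hf hv hv0
    have h3 := hcB v (Submodule.mem_sup_left hv)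
    rw [hC1 v hv, hc1] at h3
    rw [ev_sub, ev_one, ← h3]
    exact sub_self v

end Cfsg.Agent.H520.RC
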